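/-
Groups with abelian involution centralisers: the action in which every involution fixes exactly
one point.
-/
import Mathlib

set_option autoImplicit false

namespace CfsgLib.AbelianInvCent

open MulAction

/-- Every involution has abelian centraliser and fixes exactly one point, the involutions fixing a
point commute, and every point is fixed by at least two of them. -/
structure Hyp (G X : Type*) [Group G] [MulAction G X] : Prop where
  abel : ∀ t : G, orderOf t = 2 → ∀ a b : G, a * t = t * a → b * t = t * b → a * b = b * a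
  fixed : ∀ t : G, orderOf t = 2 → ∃! x : X, t • x = x
  commInv : ∀ (x : X) (s t : G), orderOf s = 2 → orderOf t = 2 → s • x = x → t • x = x →
    s * t = t * s
  two : ∀ x : X, ∃ s t : G, s ≠ t ∧ orderOf s = 2 ∧ orderOf t = 2 ∧ s • x = x ∧ t • x = x
  nontriv : ∃ x y : X, x ≠ y

variable (G : Type*) {X : Type*} [Group G] [MulAction G X]

/-- The centraliser of the involutions fixing a point. -/
def kern (x : X) : Subgroup G := Subgroup.centralizer {t : G | orderOf t = 2 ∧ t • x = x}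

variable {G}

theorem mul_self_of_two {t : G} (ht : orderOf t = 2) : t * t = 1 := by
  rw [← pow_two, ← ht, pow_orderOf_eq_one]

theorem inv_of_two {t : G} (ht : orderOf t = 2) : t⁻¹ = t :=
  inv_eq_of_mul_eq_one_right (mul_self_of_two ht)

theorem orderOf_conj' (g t : G) : orderOf (g * t * g⁻¹) = orderOf t :=
  orderOf_injective (MulAut.conj g).toMonoidHom (MulAut.conj g).injective t

theorem smul_smul_two {t : G} (ht : orderOf t = 2) (x : X) : t • t • x = x := by
  rw [← mul_smul, mul_self_of_two ht, one_smul]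

theorem inv_smul_of_smul {g : G} {x : X} (h : g • x = x) : g⁻¹ • x = x :=
  inv_smul_eq_iff.2 h.symm

namespace Hyp

variable (hyp : Hyp G X)
include hyp

theorem exists_inv (x : X) : ∃ t : G, orderOf t = 2 ∧ t • x = x := by
  obtain ⟨s, -, -, hs, -, hsx, -⟩ := hyp.two x
  exact ⟨s, hs, hsx⟩

theorem fix_eq {t : G} (ht : orderOf t = 2) {x y : X} (hx : t • x = x) (hy : t • y = y) : x = y :=
  (hyp.fixed t ht).unique hx hy

theorem mem_kern_iff {x : X} {t : G} (ht : orderOf t = 2) (htx : t • x = x) {g : G} :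
    g ∈ kern G x ↔ g * t = t * g := by
  refine ⟨fun hg => (hg t ⟨ht, htx⟩).symm, fun hg s hs => ?_⟩
  exact hyp.abel t ht s g (hyp.commInv x s t hs.1 ht hs.2 htx) hg

omit hyp in
theorem conj_mem_kern {x : X} {a g : G} (ha : a ∈ kern G x) : g * a * g⁻¹ ∈ kern G (g • x) := by
  intro t ht
  have h1 : orderOf (g⁻¹ * t * g) = 2 := by
    have := orderOf_conj' g⁻¹ t
    rw [inv_inv] at this
    rw [this]; exact ht.1
  have h2 : (g⁻¹ * t * g) • x = x := by rw [mul_smul, mul_smul, ht.2, inv_smul_smul]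
  have h3 := ha _ ⟨h1, h2⟩
  calc t * (g * a * g⁻¹) = g * ((g⁻¹ * t * g) * a) * g⁻¹ := by group
    _ = g * (a * (g⁻¹ * t * g)) * g⁻¹ := by rw [h3]
    _ = g * a * g⁻¹ * t := by group

omit hyp in
theorem conj_mem_kern_stab {x : X} {a g : G} (ha : a ∈ kern G x) (hg : g • x = x) :
    g * a * g⁻¹ ∈ kern G x := by
  simpa only [hg] using conj_mem_kern (g := g) ha

theorem kern_smul {x : X} {a : G} (ha : a ∈ kern G x) : a • x = x := by
  obtain ⟨t, ht, htx⟩ := hyp.exists_inv x
  refine hyp.fix_eq ht ?_ htx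
  rw [← mul_smul, ← (hyp.mem_kern_iff ht htx).1 ha, mul_smul, htx]

theorem mem_kern_self {x : X} {t : G} (ht : orderOf t = 2) (htx : t • x = x) : t ∈ kern G x :=
  (hyp.mem_kern_iff ht htx).2 rfl

theorem kern_comm {x : X} {a b : G} (ha : a ∈ kern G x) (hb : b ∈ kern G x) : a * b = b * a := by
  obtain ⟨t, ht, htx⟩ := hyp.exists_inv x
  exact hyp.abel t ht a b ((hyp.mem_kern_iff ht htx).1 ha) ((hyp.mem_kern_iff ht htx).1 hb)

theorem center_le_kern {x : X} {z : G} (hz : z ∈ Subgroup.center G) : z ∈ kern G x :=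
  fun t _ => Subgroup.mem_center_iff.1 hz t

theorem center_smul {z : G} (hz : z ∈ Subgroup.center G) (x : X) : z • x = x :=
  hyp.kern_smul (hyp.center_le_kern hz)

variable [Finite G]

theorem odd_of_fix_two {g : G} {x y : X} (hxy : x ≠ y) (hx : g • x = x) (hy : g • y = y) :
    Odd (orderOf g) := by
  by_contra h
  rw [Nat.not_odd_iff_even] at h
  obtain ⟨m, hm⟩ := h.two_dvd
  have ht : orderOf (g ^ m) = 2 := by
    have h0 := orderOf_pos g
    rw [orderOf_pow_of_dvd (by omega) ⟨2, by omega⟩, hm, Nat.mul_div_cancel _ (by omega)]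
  exact hxy (hyp.fix_eq ht (smul_pow_fix hx m) (smul_pow_fix hy m))
where
  smul_pow_fix {g : G} {x : X} (hx : g • x = x) (m : ℕ) : g ^ m • x = x :=
    show g ^ m ∈ stabilizer G x from pow_mem (show g ∈ stabilizer G x from hx) m

omit hyp in
theorem mem_of_sq_mem {g : G} (hodd : Odd (orderOf g)) {K : Subgroup G} (h : g * g ∈ K) : g ∈ K := by
  obtain ⟨k, hk⟩ := hodd
  have : (g * g) ^ (k + 1) = g := by
    rw [← pow_two, ← pow_mul, show 2 * (k + 1) = orderOf g + 1 by omega, pow_succ, pow_orderOf_eq_one,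
      one_mul]
  exact this ▸ pow_mem h _

theorem eq_one_of_sq {g : G} (hodd : Odd (orderOf g)) (h : g * g = 1) : g = 1 :=
  Subgroup.mem_bot.1 (mem_of_sq_mem hodd (K := ⊥) (Subgroup.mem_bot.2 h))

theorem center_odd {z : G} (hz : z ∈ Subgroup.center G) : Odd (orderOf z) := by
  obtain ⟨x, y, hxy⟩ := hyp.nontriv
  exact hyp.odd_of_fix_two hxy (hyp.center_smul hz x) (hyp.center_smul hz y)

theorem odd_orderOf_mul {a b : G} (ha : orderOf a = 2) (hb : orderOf b = 2) {x y : X}
    (hax : a • x = x) (hby : b • y = y) (hxy : x ≠ y) : Odd (orderOf (a * b)) := by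
  by_contra h
  rw [Nat.not_odd_iff_even] at h
  obtain ⟨m, hm⟩ := h.two_dvd
  have h0 := orderOf_pos (a * b)
  have hc : orderOf ((a * b) ^ m) = 2 := by
    rw [orderOf_pow_of_dvd (by omega) ⟨2, by omega⟩, hm, Nat.mul_div_cancel _ (by omega)]
  have hinv : ∀ t : G, t * (a * b) * t⁻¹ = (a * b)⁻¹ →
      t * (a * b) ^ m = (a * b) ^ m * t := by
    intro t ht
    have := conj_pow (i := m) (a := t) (b := a * b)
    rw [ht, inv_pow, inv_of_two hc] at this
    exact mul_inv_eq_iff_eq_mul.1 this.symm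
  have hca : a * (a * b) ^ m = (a * b) ^ m * a := hinv a (by
    rw [mul_inv_rev, inv_of_two ha, inv_of_two hb, ← mul_assoc, mul_self_of_two ha, one_mul])
  have hcb : b * (a * b) ^ m = (a * b) ^ m * b := hinv b (by
    rw [mul_inv_rev, inv_of_two ha, inv_of_two hb, mul_assoc, mul_assoc, mul_self_of_two hb, mul_one])
  obtain ⟨p, hp, -⟩ := hyp.fixed _ hc
  refine hxy ((hyp.fix_eq ha hax (y := p) ?_).trans (hyp.fix_eq hb hby (y := p) ?_).symm)
  · exact hyp.fix_eq hc (by rw [← mul_smul, ← hca, mul_smul, hp]) hp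
  · exact hyp.fix_eq hc (by rw [← mul_smul, ← hcb, mul_smul, hp]) hp

/-- For `a` fixing `x` and `b` fixing `y ≠ x` there is an involution swapping `x` and `y` and
conjugating `a` to `b`. -/
theorem exists_swap_conj {a b : G} (ha : orderOf a = 2) (hb : orderOf b = 2) {x y : X}
    (hax : a • x = x) (hby : b • y = y) (hxy : x ≠ y) :
    ∃ s : G, orderOf s = 2 ∧ s • x = y ∧ s • y = x ∧ s * a * s⁻¹ = b := by
  obtain ⟨k, hk⟩ := hyp.odd_orderOf_mul ha hb hax hby hxy
  have hinv : a * (a * b) * a⁻¹ = (a * b)⁻¹ := by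
    rw [mul_inv_rev, inv_of_two ha, inv_of_two hb, ← mul_assoc, mul_self_of_two ha, one_mul]
  have hk' : a * (a * b) ^ k = ((a * b) ^ k)⁻¹ * a := by
    have := conj_pow (i := k) (a := a) (b := a * b)
    rw [hinv, inv_pow] at this
    exact mul_inv_eq_iff_eq_mul.1 this.symm
  set c := (a * b) ^ k with hc
  have hcc : c * c = (a * b)⁻¹ := by
    refine eq_inv_of_mul_eq_one_left ?_
    rw [hc, ← pow_add, ← pow_succ, show k + k + 1 = orderOf (a * b) by omega, pow_orderOf_eq_one]
  have hconj : c * a * c⁻¹ = b := by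
    have h1 : a * c⁻¹ = c * a := by
      have h2 : c * (a * c) = c * (c⁻¹ * a) := by rw [hk']
      rw [mul_inv_cancel_left, ← mul_assoc] at h2
      calc a * c⁻¹ = c * a * c * c⁻¹ := by rw [h2]
        _ = c * a := by group
    rw [mul_assoc, h1, ← mul_assoc, hcc, mul_inv_rev, inv_of_two ha, inv_of_two hb, mul_assoc,
      mul_self_of_two ha, mul_one]
  have hs2 : c * a * (c * a) = 1 := by
    rw [mul_assoc, ← mul_assoc a, hk', mul_assoc, mul_self_of_two ha, mul_one, mul_inv_cancel]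
  have hcx : c • x = y := hyp.fix_eq hb (by
    rw [← hconj, mul_smul, mul_smul, inv_smul_smul, hax]) hby
  have hsx : (c * a) • x = y := by rw [mul_smul, hax, hcx]
  refine ⟨c * a, ?_, hsx, ?_, ?_⟩
  · refine orderOf_eq_prime (by rw [pow_two, hs2]) fun h => hxy ?_
    rw [← hsx, h, one_smul]
  · nth_rw 1 [← hsx]
    rw [← mul_smul, hs2, one_smul]
  · rw [← hconj]; group

theorem exists_swap {x y : X} (hxy : x ≠ y) : ∃ s : G, orderOf s = 2 ∧ s • x = y ∧ s • y = x := by
  obtain ⟨a, ha, hax⟩ := hyp.exists_inv x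
  obtain ⟨b, hb, hby⟩ := hyp.exists_inv y
  obtain ⟨s, hs, h1, h2, -⟩ := hyp.exists_swap_conj ha hb hax hby hxy
  exact ⟨s, hs, h1, h2⟩

/-- The two point stabiliser is transitive on the involutions fixing one of the points. -/
theorem exists_fix_two_conj {a a' : G} (ha : orderOf a = 2) (ha' : orderOf a' = 2) {x y : X}
    (hax : a • x = x) (ha'x : a' • x = x) (hxy : x ≠ y) :
    ∃ d : G, d • x = x ∧ d • y = y ∧ d * a * d⁻¹ = a' := by
  obtain ⟨b, hb, hby⟩ := hyp.exists_inv y
  obtain ⟨s, hs, hsx, hsy, hsc⟩ := hyp.exists_swap_conj ha hb hax hby hxy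
  obtain ⟨s', hs', hs'x, hs'y, hs'c⟩ := hyp.exists_swap_conj ha' hb ha'x hby hxy
  refine ⟨s'⁻¹ * s, ?_, ?_, ?_⟩
  · rw [mul_smul, hsx, inv_of_two hs', hs'y]
  · rw [mul_smul, hsy, inv_of_two hs', hs'x]
  · calc s'⁻¹ * s * a * (s'⁻¹ * s)⁻¹ = s'⁻¹ * (s * a * s⁻¹) * s' := by group
      _ = s'⁻¹ * (s' * a' * s'⁻¹) * s' := by rw [hsc, hs'c]
      _ = a' := by group

/-- A point stabiliser is the product of the kernel and a two point stabiliser. -/
theorem exists_factor {g : G} {x y : X} (hg : g • x = x) (hxy : x ≠ y) :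
    ∃ d : G, d • x = x ∧ d • y = y ∧ d⁻¹ * g ∈ kern G x := by
  obtain ⟨a, ha, hax⟩ := hyp.exists_inv x
  have hgax : (g * a * g⁻¹) • x = x := by
    rw [mul_smul, mul_smul, inv_smul_of_smul hg, hax, hg]
  obtain ⟨d, hdx, hdy, hd⟩ := hyp.exists_fix_two_conj (a' := g * a * g⁻¹) ha
    ((orderOf_conj' g a).trans ha) hax hgax hxy
  refine ⟨d, hdx, hdy, (hyp.mem_kern_iff ha hax).2 ?_⟩
  calc d⁻¹ * g * a = d⁻¹ * (g * a * g⁻¹) * g := by group
    _ = d⁻¹ * (d * a * d⁻¹) * g := by rw [hd]
    _ = a * (d⁻¹ * g) := by group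

theorem exists_not_mem_kern {x y : X} (hxy : x ≠ y) :
    ∃ d : G, d • x = x ∧ d • y = y ∧ d ∉ kern G x := by
  obtain ⟨s, t, hst, hs, ht, hsx, htx⟩ := hyp.two x
  obtain ⟨d, hdx, hdy, hd⟩ := hyp.exists_fix_two_conj hs ht hsx htx hxy
  refine ⟨d, hdx, hdy, fun h => hst ?_⟩
  rw [← hd, (hyp.mem_kern_iff hs hsx).1 h]
  group

end Hyp

/-- The involution `u` swapping `x` and `y` centralises nothing outside the centre in the
stabiliser of the two points, and hence inverts that stabiliser modulo the centre. -/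
def InvPair (u : G) (x y : X) : Prop :=
  ∀ c : G, c • x = x → c • y = y → c * u = u * c → c ∈ Subgroup.center G

namespace InvPair

variable [Finite G]

theorem inverts (hyp : Hyp G X) {u d : G} {x y : X} (hu : InvPair u x y) (hu2 : orderOf u = 2)
    (hxy : x ≠ y) (hux : u • x = y) (huy : u • y = x) (hdx : d • x = x) (hdy : d • y = y) :
    u * d * u * d ∈ Subgroup.center G := by
  set D := stabilizer G x ⊓ stabilizer G y with hD
  have hdD : d ∈ D := ⟨hdx, hdy⟩
  have hudD : u * d * u ∈ D := by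
    constructor
    · show (u * d * u) • x = x
      rw [mul_smul, mul_smul, hux, hdy, huy]
    · show (u * d * u) • y = y
      rw [mul_smul, mul_smul, huy, hdx, hux]
  set e := d⁻¹ * (u * d * u) with he
  have heD : e ∈ D := mul_mem (inv_mem hdD) hudD
  have hee : u * e * u = e⁻¹ := by
    rw [he]
    calc u * (d⁻¹ * (u * d * u)) * u = u * d⁻¹ * u * d * (u * u) := by group
      _ = u⁻¹ * d⁻¹ * u⁻¹ * d * (u * u) := by rw [inv_of_two hu2]
      _ = (d⁻¹ * (u * d * u))⁻¹ := by rw [mul_self_of_two hu2]; group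
  obtain ⟨k, hk⟩ := hyp.odd_of_fix_two hxy heD.1 heD.2
  set r := e ^ (k + 1) with hr
  have hrr : r * r = e := by
    rw [hr, ← pow_add, show k + 1 + (k + 1) = orderOf e + 1 by omega, pow_succ, pow_orderOf_eq_one,
      one_mul]
  have hrD : r ∈ D := pow_mem heD _
  have hru : u * r * u = r⁻¹ := by
    have h0 : u * r * u⁻¹ = (u * e * u⁻¹) ^ (k + 1) := (conj_pow).symm
    rw [inv_of_two hu2, hee, inv_pow] at h0
    exact h0
  have hfix : u * (d * r) * u = d * r := by
    calc u * (d * r) * u = u * d * (u * u) * r * u := by rw [mul_self_of_two hu2, mul_one]; group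
      _ = u * d * u * (u * r * u) := by group
      _ = d * e * r⁻¹ := by rw [hru, he]; group
      _ = d * r := by rw [← hrr]; group
  have hc : d * r ∈ Subgroup.center G := by
    refine hu _ (show d * r ∈ stabilizer G x from (mul_mem hdD hrD).1)
      (show d * r ∈ stabilizer G y from (mul_mem hdD hrD).2) ?_
    calc d * r * u = u * (d * r) * u * u := by rw [hfix]
      _ = u * (d * r) * (u * u) := by group
      _ = u * (d * r) := by rw [mul_self_of_two hu2, mul_one]
  have hc2 := Subgroup.mem_center_iff.1 hc r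
  have : u * d * u * d = (d * r) * (d * r) := by
    calc u * d * u * d = d * e * d := by rw [he]; group
      _ = d * r * (r * (d * r)) * r⁻¹ := by rw [← hrr]; group
      _ = d * r * (d * r * r) * r⁻¹ := by rw [hc2]
      _ = (d * r) * (d * r) := by group
  rw [this]
  exact mul_mem hc hc

theorem comm (hyp : Hyp G X) {u d d' : G} {x y : X} (hu : InvPair u x y) (hu2 : orderOf u = 2)
    (hxy : x ≠ y) (hux : u • x = y) (huy : u • y = x) (hdx : d • x = x) (hdy : d • y = y)
    (hd'x : d' • x = x) (hd'y : d' • y = y) :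
    d * d' * d⁻¹ * d'⁻¹ ∈ Subgroup.center G := by
  have i1 := hu.inverts hyp hu2 hxy hux huy hdx hdy
  have i2 := hu.inverts hyp hu2 hxy hux huy hd'x hd'y
  have i3 := hu.inverts hyp hu2 hxy hux huy (d := d * d')
    (by rw [mul_smul, hd'x, hdx]) (by rw [mul_smul, hd'y, hdy])
  set z := u * d * u * d with hz
  set z' := u * d' * u * d' with hz'
  set z'' := u * (d * d') * u * (d * d') with hz''
  have : z'' = z * z' * (d⁻¹ * d'⁻¹ * (d * d')) := by
    have c1 : z * (d⁻¹ * z') = z * z' * d⁻¹ := by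
      rw [Subgroup.mem_center_iff.1 i2 d⁻¹, ← mul_assoc]
    calc z'' = u * d * (u * u) * d' * u * (d * d') := by
          rw [mul_self_of_two hu2, hz'']; group
      _ = z * (d⁻¹ * z') * d'⁻¹ * (d * d') := by rw [hz, hz']; group
      _ = z * z' * (d⁻¹ * d'⁻¹ * (d * d')) := by rw [c1]; group
  have hm : d⁻¹ * d'⁻¹ * (d * d') ∈ Subgroup.center G := by
    rw [show d⁻¹ * d'⁻¹ * (d * d') = (z * z')⁻¹ * z'' by rw [this]; group]
    exact mul_mem (inv_mem (mul_mem i1 i2)) i3
  have := (inferInstance : (Subgroup.center G).Normal).conj_mem _ hm (d' * d)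
  have h2 : d' * d * (d⁻¹ * d'⁻¹ * (d * d')) * (d' * d)⁻¹ = d * d' * d⁻¹ * d'⁻¹ := by group
  rwa [h2] at this

end InvPair

end CfsgLib.AbelianInvCent
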