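/-
Groups with abelian involution centralisers in which only central elements of a kernel fix a
second point: structure of the point stabilisers.
-/
import Mathlib
import Cfsg.Agent.Lib.AbelianInvCent.Basic

set_option autoImplicit false

namespace CfsgLib.AbelianInvCent

open MulAction

/-- Only central elements of the kernel of a point fix another point. -/
def Good (G X : Type*) [Group G] [MulAction G X] : Prop :=
  ∀ (x y : X) (a : G), x ≠ y → a ∈ kern G x → a • y = y → a ∈ Subgroup.center G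

variable {G X : Type*} [Group G] [MulAction G X] [Finite G]

/-- Three swaps around a triangle force the square of a common fixing element into the kernel. -/
theorem sq_mem_kern_of_swaps (hyp : Hyp G X) {x : X} {d s₁ s₂ s₃ : G}
    (h1 : orderOf s₁ = 2) (h2 : orderOf s₂ = 2)
    (h3 : orderOf s₃ = 2) (hfix : (s₃ * s₂ * s₁) • x = x)
    (i1 : s₁ * d * s₁ * d ∈ Subgroup.center G) (i2 : s₂ * d * s₂ * d ∈ Subgroup.center G)
    (i3 : s₃ * d * s₃ * d ∈ kern G x)
    (hcomm : ∀ g : G, g • x = x → g * d * g⁻¹ * d⁻¹ ∈ kern G x) :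
    d * d ∈ kern G x := by
  set g := s₃ * s₂ * s₁ with hg
  have hc := hcomm g hfix
  set z₁ := s₁ * d * s₁ * d with hz1
  set z₂ := s₂ * d * s₂ * d with hz2
  set a := s₃ * d * s₃ * d with ha
  have e1 : s₁ * d * s₁ = z₁ * d⁻¹ := by rw [hz1]; group
  have e2 : s₂ * d * s₂ = z₂ * d⁻¹ := by rw [hz2]; group
  have e3 : s₃ * d * s₃ = a * d⁻¹ := by rw [ha]; group
  have e2' : s₂ * d⁻¹ * s₂ = d * z₂⁻¹ := by
    have := congrArg (·⁻¹) e2
    simpa [mul_inv_rev, inv_of_two h2, mul_assoc] using this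
  have h5 : g * d * g⁻¹ = z₁ * z₂⁻¹ * (a * d⁻¹) := by
    have step : ∀ (s z w : G), z ∈ Subgroup.center G → s * s = 1 → s * (z * w) * s = z * (s * w * s) := by
      intro s z w hz _
      rw [← mul_assoc s z w, Subgroup.mem_center_iff.1 hz s]; group
    calc g * d * g⁻¹ = s₃ * (s₂ * (s₁ * d * s₁) * s₂) * s₃ := by
          rw [hg, mul_inv_rev, mul_inv_rev, inv_of_two h1, inv_of_two h2, inv_of_two h3]; group
      _ = s₃ * (z₁ * (d * z₂⁻¹)) * s₃ := by
          rw [e1, step s₂ _ _ i1 (mul_self_of_two h2), e2']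
      _ = z₁ * (s₃ * (z₂⁻¹ * d) * s₃) := by
          rw [step s₃ _ _ i1 (mul_self_of_two h3), Subgroup.mem_center_iff.1 (inv_mem i2) d]
      _ = z₁ * z₂⁻¹ * (a * d⁻¹) := by
          rw [step s₃ _ _ (inv_mem i2) (mul_self_of_two h3), e3]; group
  rw [h5] at hc
  set w := z₁ * z₂⁻¹ * a with hw
  have hwk : w ∈ kern G x :=
    mul_mem (mul_mem (hyp.center_le_kern i1) (inv_mem (hyp.center_le_kern i2))) i3
  have hh : w⁻¹ * (z₁ * z₂⁻¹ * (a * d⁻¹) * d⁻¹) = (d * d)⁻¹ := by rw [hw]; group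
  exact inv_mem_iff.1 (hh ▸ mul_mem (inv_mem hwk) hc)

namespace Good

variable (hyp : Hyp G X) (good : Good G X)
include hyp good

theorem invPair {u : G} {x y : X} (hu : orderOf u = 2) (hxy : x ≠ y) (hux : u • x = y) :
    InvPair u x y := by
  intro c hcx _ hc
  obtain ⟨w, hw, -⟩ := hyp.fixed u hu
  refine good w x c (fun h => hxy ?_) ((hyp.mem_kern_iff hu hw).2 hc) hcx
  rw [← hux, ← h]; exact hw.symm

theorem comm_kern {x : X} {g h : G} (hg : g • x = x) (hh : h • x = x) :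
    g * h * g⁻¹ * h⁻¹ ∈ kern G x := by
  obtain ⟨y, hxy⟩ : ∃ y, x ≠ y := by
    obtain ⟨p, q, hpq⟩ := hyp.nontriv
    by_cases h : x = p
    · exact ⟨q, h ▸ hpq⟩
    · exact ⟨p, h⟩
  obtain ⟨d, hdx, hdy, hd⟩ := hyp.exists_factor hg hxy
  obtain ⟨e, hex, hey, he⟩ := hyp.exists_factor hh hxy
  obtain ⟨u, hu, hux, huy⟩ := hyp.exists_swap hxy
  have hde := (invPair hyp good hu hxy hux).comm hyp hu hxy hux huy hdx hdy hex hey
  set a := d⁻¹ * g
  set b := e⁻¹ * h
  have hga : g = d * a := by simp [a]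
  have hhb : h = e * b := by simp [b]
  set P := e⁻¹ * a * e⁻¹⁻¹ * b * a⁻¹ with hP
  have hPk : P ∈ kern G x :=
    mul_mem (mul_mem (Hyp.conj_mem_kern_stab hd (inv_smul_of_smul hex)) he) (inv_mem hd)
  have : g * h * g⁻¹ * h⁻¹ = (d * e * d⁻¹ * e⁻¹) * (e * (d * P * d⁻¹ * b⁻¹) * e⁻¹) := by
    rw [hga, hhb, hP]; group
  rw [this]
  exact mul_mem (hyp.center_le_kern hde)
    (Hyp.conj_mem_kern_stab (mul_mem (Hyp.conj_mem_kern_stab hPk hdx) (inv_mem he)) hex)

theorem mem_center_of_fix_three {d : G} {x y z : X} (hxy : x ≠ y) (hyz : y ≠ z) (hxz : x ≠ z)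
    (hx : d • x = x) (hy : d • y = y) (hz : d • z = z) : d ∈ Subgroup.center G := by
  obtain ⟨s₁, h1, h1x, h1y⟩ := hyp.exists_swap hxy
  obtain ⟨s₂, h2, h2y, h2z⟩ := hyp.exists_swap hyz
  obtain ⟨s₃, h3, h3z, h3x⟩ := hyp.exists_swap hxz.symm
  refine good x y d hxy ?_ hy
  refine Hyp.mem_of_sq_mem (hyp.odd_of_fix_two hxy hx hy) (sq_mem_kern_of_swaps hyp h1 h2 h3 ?_
    ((invPair hyp good h1 hxy h1x).inverts hyp h1 hxy h1x h1y hx hy)
    ((invPair hyp good h2 hyz h2y).inverts hyp h2 hyz h2y h2z hy hz)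
    (hyp.center_le_kern ((invPair hyp good h3 hxz.symm h3z).inverts hyp h3 hxz.symm h3z h3x hz hx))
    (fun g hg => comm_kern hyp good hg hx))
  rw [mul_smul, mul_smul, h1x, h2y, h3z]

/-- Outside the kernel an element fixing a point is conjugate by the kernel into the stabiliser of
any second point. -/
theorem exists_kern_fixed {x y : X} {h : G} (hxy : x ≠ y) (hhx : h • x = x) (hh : h ∉ kern G x) :
    ∃ a ∈ kern G x, h • a • y = a • y := by
  obtain ⟨d, hdx, hdy, hd⟩ := hyp.exists_factor hhx hxy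
  set A := kern G x with hA
  haveI : IsMulCommutative A := ⟨⟨fun a b => Subtype.ext (hyp.kern_comm a.2 b.2)⟩⟩
  have hdA : d ∉ A := fun h' => hh (by simpa using mul_mem h' hd)
  let f : A →* A := MonoidHom.mk'
    (fun a => ⟨a * (d * (a : G)⁻¹ * d⁻¹), mul_mem a.2 (Hyp.conj_mem_kern_stab (inv_mem a.2) hdx)⟩)
    (fun a b => by
      have hcab := hyp.kern_comm b.2 (Hyp.conj_mem_kern_stab (inv_mem a.2) hdx)
      have hcba := hyp.kern_comm (Hyp.conj_mem_kern_stab (inv_mem a.2) hdx)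
        (Hyp.conj_mem_kern_stab (inv_mem b.2) hdx)
      ext
      simp only [Subgroup.coe_mul]
      set u := d * (a : G)⁻¹ * d⁻¹ with hu
      set v := d * (b : G)⁻¹ * d⁻¹ with hv
      rw [show d * ((a : G) * b)⁻¹ * d⁻¹ = v * u by rw [hu, hv]; group, ← hcba, mul_assoc (a : G),
        ← mul_assoc (b : G), hcab, mul_assoc, hu]; group)
  set K := (Subgroup.center G).subgroupOf A with hK
  have hle : K ≤ K.comap f := by
    intro a ha
    rw [hK, Subgroup.mem_subgroupOf] at ha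
    rw [Subgroup.mem_comap, hK, Subgroup.mem_subgroupOf]
    exact mul_mem ha ((inferInstance : (Subgroup.center G).Normal).conj_mem _ (inv_mem ha) d)
  let F := QuotientGroup.map K K f hle
  have hinj : Function.Injective F := by
    rw [injective_iff_map_eq_one]
    intro q
    refine QuotientGroup.induction_on q fun a hqa => ?_
    rw [QuotientGroup.map_mk, QuotientGroup.eq_one_iff, hK, Subgroup.mem_subgroupOf] at hqa
    rw [QuotientGroup.eq_one_iff, hK, Subgroup.mem_subgroupOf]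
    change (a : G) * (d * (a : G)⁻¹ * d⁻¹) ∈ Subgroup.center G at hqa
    have hfix : d • (a : G) • y = (a : G) • y := by
      set z := (a : G) * (d * (a : G)⁻¹ * d⁻¹) with hz
      have e : d * (a : G) = z⁻¹ * (a * d) := by rw [hz]; group
      rw [← mul_smul, e, mul_smul, mul_smul, hdy, hyp.center_smul (inv_mem hqa)]
    by_contra hna
    have hay : (a : G) • y ≠ y := fun e => hna (good x y a hxy a.2 e)
    have hxay : x ≠ (a : G) • y := fun e => hxy (by
      have := congrArg ((a : G)⁻¹ • ·) e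
      simpa [inv_smul_of_smul (hyp.kern_smul a.2)] using this)
    exact hdA (hyp.center_le_kern (mem_center_of_fix_three hyp good hxy hay.symm hxay hdx hdy hfix))
  obtain ⟨q, hq⟩ := Finite.surjective_of_injective hinj
    (QuotientGroup.mk ⟨d * (d⁻¹ * h) * d⁻¹, Hyp.conj_mem_kern_stab hd hdx⟩)
  revert hq
  refine QuotientGroup.induction_on q fun a hqa => ?_
  rw [QuotientGroup.map_mk, QuotientGroup.eq, hK, Subgroup.mem_subgroupOf] at hqa
  refine ⟨a, a.2, ?_⟩
  change ((a : G) * (d * (a : G)⁻¹ * d⁻¹))⁻¹ * (d * (d⁻¹ * h) * d⁻¹) ∈ Subgroup.center G at hqa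
  set z := ((a : G) * (d * (a : G)⁻¹ * d⁻¹))⁻¹ * (d * (d⁻¹ * h) * d⁻¹) with hz
  have e : h * (a : G) = (a * (d * (a : G)⁻¹ * d⁻¹)) * z * (d * a) := by rw [hz]; group
  have e' : h * (a : G) = a * d * z := by
    rw [e, mul_assoc _ z, ← Subgroup.mem_center_iff.1 hqa (d * (a : G))]; group
  rw [← mul_smul, e', mul_smul, mul_smul, hyp.center_smul hqa, hdy]

theorem exists_fixed {x : X} {h : G} (hhx : h • x = x) (hh : h ∉ kern G x) :
    ∃ y, x ≠ y ∧ h • y = y := by
  obtain ⟨y, hxy⟩ : ∃ y, x ≠ y := by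
    obtain ⟨p, q, hpq⟩ := hyp.nontriv
    by_cases h : x = p
    · exact ⟨q, h ▸ hpq⟩
    · exact ⟨p, h⟩
  obtain ⟨a, ha, hay⟩ := exists_kern_fixed hyp good hxy hhx hh
  refine ⟨a • y, fun e => hxy ?_, hay⟩
  have := congrArg (a⁻¹ • ·) e
  simpa [inv_smul_of_smul (hyp.kern_smul ha)] using this

theorem exists_kern_smul {x y y' : X} (hy : x ≠ y) (hy' : x ≠ y') :
    ∃ a ∈ kern G x, a • y = y' := by
  obtain ⟨d, hdx, hdy', hd⟩ := hyp.exists_not_mem_kern hy'
  obtain ⟨a, ha, hay⟩ := exists_kern_fixed hyp good hy hdx hd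
  refine ⟨a, ha, ?_⟩
  by_contra hne
  have hx : x ≠ a • y := fun e => hy (by
    have := congrArg (a⁻¹ • ·) e
    simpa [inv_smul_of_smul (hyp.kern_smul ha)] using this)
  exact hd (hyp.center_le_kern (mem_center_of_fix_three hyp good hx hne hy' hdx hay hdy'))

end Good

end CfsgLib.AbelianInvCent
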