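/-
In a group with abelian involution centralisers no noncentral element centralises the involutions
fixing two different points; consequently only central elements of a kernel fix a second point.
-/
import Mathlib
import Cfsg.Agent.Lib.AbelianInvCent.Good

set_option autoImplicit false

namespace CfsgLib.AbelianInvCent

open MulAction

universe u v

variable {G : Type u} {X : Type v} [Group G] [MulAction G X]

/-- The points at which `b` centralises the involutions, acted on by the centraliser of `b`. -/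
def block (X : Type v) [MulAction G X] (b : G) :
    SubMulAction (Subgroup.centralizer ({b} : Set G)) X where
  carrier := {x | b ∈ kern G x}
  smul_mem' g x hx := by
    have hg : b * (g : G) = g * b := g.2 b rfl
    have := Hyp.conj_mem_kern (g := (g : G)) hx
    rwa [show (g : G) * b * (g : G)⁻¹ = b by rw [← hg]; group] at this

theorem mem_block {b : G} {x : X} : x ∈ block X b ↔ b ∈ kern G x := Iff.rfl

theorem mem_cent_iff {b g : G} : g ∈ Subgroup.centralizer ({b} : Set G) ↔ g * b = b * g :=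
  ⟨fun h => (h b rfl).symm, fun h c hc => by rw [Set.mem_singleton_iff.1 hc]; exact h.symm⟩

theorem coe_orderOf {b : G} (g : Subgroup.centralizer ({b} : Set G)) : orderOf (g : G) = orderOf g :=
  Subgroup.orderOf_coe g

namespace Hyp

variable (hyp : Hyp G X)
include hyp

theorem cent_of_inv_mem {b : G} {x : X} (hb : b ∈ kern G x) {t : G} (ht : orderOf t = 2)
    (htx : t • x = x) : t ∈ Subgroup.centralizer ({b} : Set G) :=
  mem_cent_iff.2 ((hyp.mem_kern_iff ht htx).1 hb).symm

theorem block_hyp {b : G} {x y : X} (hxy : x ≠ y) (hx : b ∈ kern G x) (hy : b ∈ kern G y) :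
    Hyp (Subgroup.centralizer ({b} : Set G)) ↥(block X b) where
  abel t ht a c ha hc := by
    have h2 : orderOf (t : G) = 2 := (coe_orderOf t).trans ht
    exact Subtype.ext (hyp.abel _ h2 a c (congrArg Subtype.val ha) (congrArg Subtype.val hc))
  fixed t ht := by
    have h2 : orderOf (t : G) = 2 := (coe_orderOf t).trans ht
    obtain ⟨z, hz, huniq⟩ := hyp.fixed _ h2
    have hzb : z ∈ block X b := (hyp.mem_kern_iff h2 hz).2 (t.2 b rfl)
    exact ⟨⟨z, hzb⟩, Subtype.ext hz, fun w hw => Subtype.ext (huniq _ (congrArg Subtype.val hw))⟩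
  commInv z s t hs ht hsz htz :=
    Subtype.ext (hyp.commInv z s t ((coe_orderOf s).trans hs) ((coe_orderOf t).trans ht)
      (congrArg Subtype.val hsz) (congrArg Subtype.val htz))
  two z := by
    obtain ⟨s, t, hst, hs, ht, hsz, htz⟩ := hyp.two (z : X)
    refine ⟨⟨s, hyp.cent_of_inv_mem z.2 hs hsz⟩, ⟨t, hyp.cent_of_inv_mem z.2 ht htz⟩,
      fun e => hst (congrArg Subtype.val e), ?_, ?_, Subtype.ext hsz, Subtype.ext htz⟩
    · rw [← coe_orderOf]; exact hs
    · rw [← coe_orderOf]; exact ht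
  nontriv := ⟨⟨x, hx⟩, ⟨y, hy⟩, fun e => hxy (congrArg Subtype.val e)⟩

theorem kern_mem_cent {b a : G} {x : X} (hb : b ∈ kern G x) (ha : a ∈ kern G x) :
    a ∈ Subgroup.centralizer ({b} : Set G) :=
  mem_cent_iff.2 (hyp.kern_comm ha hb)

theorem mem_kern_block {b : G} (z : ↥(block X b)) (g : Subgroup.centralizer ({b} : Set G)) :
    g ∈ kern (Subgroup.centralizer ({b} : Set G)) z ↔ (g : G) ∈ kern G (z : X) := by
  constructor
  · intro hg
    obtain ⟨t, ht, htz⟩ := hyp.exists_inv (z : X)
    refine (hyp.mem_kern_iff ht htz).2 ?_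
    have := hg ⟨t, hyp.cent_of_inv_mem z.2 ht htz⟩ ⟨by rw [← coe_orderOf]; exact ht, Subtype.ext htz⟩
    exact (congrArg Subtype.val this).symm
  · intro hg t ht
    exact Subtype.ext (hg (t : G) ⟨(coe_orderOf t).trans ht.1, congrArg Subtype.val ht.2⟩)

end Hyp

variable (G X) in
/-- The inductive hypothesis: the theorem holds in proper centralisers. -/
def Below : Prop :=
  ∀ (b : G) (x y : X), x ≠ y → b ∈ kern G x → b ∈ kern G y → b ∉ Subgroup.center G →
    Good (Subgroup.centralizer ({b} : Set G)) ↥(block X b)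

/-- A noncentral element lying in two kernels. -/
def Shared (X : Type v) [MulAction G X] (b : G) : Prop :=
  b ∉ Subgroup.center G ∧ ∃ x y : X, x ≠ y ∧ b ∈ kern G x ∧ b ∈ kern G y

namespace Shared

variable [Finite G] (hyp : Hyp G X) (below : Below G X) {b : G} (hb : Shared X b)
include hyp hb below

omit below in
theorem exists_other (y : X) : ∃ z : X, y ≠ z ∧ b ∈ kern G z := by
  obtain ⟨-, p, q, hpq, hp, hq⟩ := hb
  by_cases h : y = p
  · exact ⟨q, h ▸ hpq, hq⟩
  · exact ⟨p, h, hp⟩

theorem good : Good (Subgroup.centralizer ({b} : Set G)) ↥(block X b) := by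
  obtain ⟨hc, p, q, hpq, hp, hq⟩ := hb
  exact below b p q hpq hp hq hc

omit below in
theorem hypBlock : Hyp (Subgroup.centralizer ({b} : Set G)) ↥(block X b) := by
  obtain ⟨-, p, q, hpq, hp, hq⟩ := hb
  exact hyp.block_hyp hpq hp hq

/-- The stabiliser of a point of the block centralises `b`. -/
theorem stab_comm {y : X} (hy : b ∈ kern G y) {g : G} (hg : g • y = y) : g * b = b * g := by
  obtain ⟨z, hyz, hz⟩ := hb.exists_other hyp y
  obtain ⟨a, ha, hay⟩ := hyp.exists_inv y
  have hH := hb.hypBlock hyp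
  have hga : (g * a * g⁻¹) • y = y := by rw [mul_smul, mul_smul, inv_smul_of_smul hg, hay, hg]
  have hga2 : orderOf (g * a * g⁻¹) = 2 := (orderOf_conj' g a).trans ha
  obtain ⟨d, hdy, -, hd⟩ := hH.exists_fix_two_conj (x := ⟨y, hy⟩) (y := ⟨z, hz⟩)
    (a := ⟨a, hyp.cent_of_inv_mem hy ha hay⟩) (a' := ⟨_, hyp.cent_of_inv_mem hy hga2 hga⟩)
    (by rw [← coe_orderOf]; exact ha) (by rw [← coe_orderOf]; exact hga2)
    (Subtype.ext hay) (Subtype.ext hga) (fun e => hyz (congrArg Subtype.val e))
  have hd' : (d : G) * a * (d : G)⁻¹ = g * a * g⁻¹ := congrArg Subtype.val hd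
  have hk : (d : G)⁻¹ * g ∈ kern G y := (hyp.mem_kern_iff ha hay).2 (by
    calc (d : G)⁻¹ * g * a = (d : G)⁻¹ * (g * a * g⁻¹) * g := by group
      _ = (d : G)⁻¹ * ((d : G) * a * (d : G)⁻¹) * g := by rw [hd']
      _ = a * ((d : G)⁻¹ * g) := by group)
  have := mem_cent_iff.1 (mul_mem d.2 (hyp.kern_mem_cent hy hk))
  rwa [mul_inv_cancel_left] at this

/-- A kernel element fixing a second point of the block commutes with the centraliser of `b`. -/
theorem kern_central {y z : X} (hy : b ∈ kern G y) (hz : b ∈ kern G z) (hyz : y ≠ z) {a : G}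
    (ha : a ∈ kern G y) (haz : a • z = z) {g : G} (hg : g * b = b * g) : g * a = a * g := by
  have h := hb.good hyp below ⟨y, hy⟩ ⟨z, hz⟩ ⟨a, hyp.kern_mem_cent hy ha⟩
    (fun e => hyz (congrArg Subtype.val e)) ((hyp.mem_kern_block _ _).2 ha) (Subtype.ext haz)
  exact congrArg Subtype.val (Subgroup.mem_center_iff.1 h ⟨g, mem_cent_iff.2 hg⟩)

theorem exists_second {y : X} (hy : b ∈ kern G y) {d : G} (hd : d • y = y) (hdA : d ∉ kern G y) :
    ∃ z : X, b ∈ kern G z ∧ y ≠ z ∧ d • z = z ∧
      ∀ z' : X, b ∈ kern G z' → y ≠ z' → d • z' = z' → z' = z := by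
  set d' : Subgroup.centralizer ({b} : Set G) := ⟨d, mem_cent_iff.2 (hb.stab_comm hyp below hy hd)⟩
  have hd' : d' ∉ kern (Subgroup.centralizer ({b} : Set G)) (⟨y, hy⟩ : ↥(block X b)) := fun h =>
    hdA ((hyp.mem_kern_block _ _).1 h)
  have hH := hb.hypBlock hyp
  have hG := hb.good hyp below
  obtain ⟨⟨z, hz⟩, hyz, hdz⟩ := Good.exists_fixed hH hG (x := ⟨y, hy⟩) (h := d') (Subtype.ext hd) hd'
  refine ⟨z, hz, fun e => hyz (Subtype.ext e), congrArg Subtype.val hdz, fun z' hz' hyz' hdz' => ?_⟩
  by_contra hne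
  refine hd' (hH.center_le_kern (Good.mem_center_of_fix_three hH hG (y := ⟨z, hz⟩) (z := ⟨z', hz'⟩)
    hyz (fun e => hne (congrArg Subtype.val e).symm) (fun e => hyz' (congrArg Subtype.val e))
    (Subtype.ext hd) hdz (Subtype.ext hdz')))

theorem comm_kern {y : X} (hy : b ∈ kern G y) {g h : G} (hg : g • y = y) (hh : h • y = y) :
    g * h * g⁻¹ * h⁻¹ ∈ kern G y := by
  have := Good.comm_kern (hb.hypBlock hyp) (hb.good hyp below) (x := ⟨y, hy⟩)
    (g := ⟨g, mem_cent_iff.2 (hb.stab_comm hyp below hy hg)⟩)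
    (h := ⟨h, mem_cent_iff.2 (hb.stab_comm hyp below hy hh)⟩) (Subtype.ext hg) (Subtype.ext hh)
  exact (hyp.mem_kern_block _ _).1 this

/-- An involution of the block swapping two of its points inverts their stabiliser modulo
elements centralising the centraliser of `b`. -/
theorem exists_swap {y z : X} (hy : b ∈ kern G y) (hz : b ∈ kern G z) (hyz : y ≠ z) :
    ∃ s : G, orderOf s = 2 ∧ s • y = z ∧ s • z = y ∧ s * b = b * s ∧
      ∀ g : G, g • y = y → g • z = z →
        s * g * s * g ∈ kern G y ∧ ∀ c : G, c * b = b * c → c * (s * g * s * g) = s * g * s * g * c := by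
  have hH := hb.hypBlock hyp
  have hne : (⟨y, hy⟩ : ↥(block X b)) ≠ ⟨z, hz⟩ := fun e => hyz (congrArg Subtype.val e)
  obtain ⟨s, hs, hsy, hsz⟩ := hH.exists_swap hne
  refine ⟨s, (coe_orderOf s).trans hs, congrArg Subtype.val hsy, congrArg Subtype.val hsz,
    mem_cent_iff.1 s.2, fun g hgy hgz => ?_⟩
  have h := (Good.invPair hH (hb.good hyp below) hs hne hsy).inverts hH hs hne hsy hsz
    (d := ⟨g, mem_cent_iff.2 (hb.stab_comm hyp below hy hgy)⟩) (Subtype.ext hgy) (Subtype.ext hgz)
  exact ⟨(hyp.mem_kern_block (⟨y, hy⟩ : ↥(block X b)) _).1 (hH.center_le_kern h),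
    fun c hc => congrArg Subtype.val (Subgroup.mem_center_iff.1 h ⟨c, mem_cent_iff.2 hc⟩)⟩

omit below in
theorem conj (s : G) : Shared X (s * b * s⁻¹) := by
  obtain ⟨hc, p, q, hpq, hp, hq⟩ := hb
  refine ⟨fun h => hc ?_, s • p, s • q, fun e => hpq (MulAction.injective s e),
    Hyp.conj_mem_kern hp, Hyp.conj_mem_kern hq⟩
  have := (inferInstance : (Subgroup.center G).Normal).conj_mem _ h s⁻¹
  simpa [mul_assoc] using this

/-- Shared elements of one kernel have the same centraliser. -/
theorem comm_of_comm {c : G} (hc : Shared X c) {y : X} (hy : b ∈ kern G y) (hcy : c ∈ kern G y)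
    {g : G} (hg : g * b = b * g) : g * c = c * g := by
  obtain ⟨p, hyp', -⟩ := hb.exists_other hyp y
  obtain ⟨d, hdy, -, hd⟩ := hyp.exists_not_mem_kern hyp'
  obtain ⟨z, hz, hyz, hdz, huniq⟩ := hb.exists_second hyp below hy hdy hd
  have hcb : c * b = b * c := hyp.kern_comm hcy hy
  have hcz : b ∈ kern G (c • z) := by
    have := Hyp.conj_mem_kern (g := c) hz
    rwa [show c * b * c⁻¹ = b by rw [hcb]; group] at this
  refine hb.kern_central hyp below hy hz hyz hcy (huniq _ hcz (fun e => hyz ?_) ?_) hg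
  · have := congrArg (c⁻¹ • ·) e
    simpa [inv_smul_of_smul (hyp.kern_smul hcy)] using this
  · rw [← mul_smul, hc.stab_comm hyp below hcy hdy, mul_smul, hdz]

theorem block_le {c : G} (hc : Shared X c) {y x : X} (hy : b ∈ kern G y) (hcy : c ∈ kern G y)
    (hcx : c ∈ kern G x) : b ∈ kern G x := by
  obtain ⟨t, ht, htx⟩ := hyp.exists_inv x
  exact (hyp.mem_kern_iff ht htx).2
    (hc.comm_of_comm hyp below hb hcy hy ((hyp.mem_kern_iff ht htx).1 hcx).symm).symm

/-- A shared element fixes no point outside its block. -/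
theorem mem_of_fix {x : X} (hbx : b • x = x) : b ∈ kern G x := by
  by_contra hx
  obtain ⟨hbc, y, q, hyq, hy, hq⟩ := id hb
  have hyx : y ≠ x := fun e => hx (e ▸ hy)
  obtain ⟨u, hu, huy, hux⟩ := hyp.exists_swap hyx
  set b' := u * b * u⁻¹ with hb'def
  have hb' : Shared X b' := hb.conj hyp u
  have hb'x : b' ∈ kern G x := huy ▸ Hyp.conj_mem_kern hy
  have hb'y : b' • y = y := by rw [hb'def, inv_of_two hu, mul_smul, mul_smul, huy, hbx, hux]
  have hb'A : b' ∉ kern G y := fun h => hx (hb.block_le hyp below hb' hy h hb'x)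
  obtain ⟨z, hz, hyz, hb'z, huniq⟩ := hb.exists_second hyp below hy hb'y hb'A
  have hzx : z ≠ x := fun e => hx (e ▸ hz)
  obtain ⟨v, hv, hvy, hvz, hvb, hvinv⟩ := hb.exists_swap hyp below hy hz hyz
  obtain ⟨hv1, hv2⟩ := hvinv b' hb'y hb'z
  have hodd : Odd (orderOf b') := hyp.odd_of_fix_two hyz hb'y hb'z
  -- the common centraliser of `b` and `b'` fixes `y`, `z` and `x`
  have hU : ∀ g : G, g * b = b * g → g * b' = b' * g → g • y = y ∧ g • z = z := by
    intro g hgb hgb'
    have hmem : ∀ w : X, b ∈ kern G w → b ∈ kern G (g • w) := fun w hw => by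
      have := Hyp.conj_mem_kern (g := g) hw
      rwa [show g * b * g⁻¹ = b by rw [hgb]; group] at this
    have hfix : ∀ w : X, b' • w = w → b' • g • w = g • w := fun w hw => by
      rw [← mul_smul, ← hgb', mul_smul, hw]
    have hgy : g • y = y := by
      by_contra hne
      have hgz : g • y = z := huniq _ (hmem y hy) (Ne.symm hne) (hfix y hb'y)
      have hk : (v * g) • y = y := by rw [mul_smul, hgz, hvz]
      have hcm := hb.comm_kern hyp below hy hk hb'y
      have e : v * g * b' * (v * g)⁻¹ * b'⁻¹ = v * b' * v * b' * (b' * b')⁻¹ := by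
        calc v * g * b' * (v * g)⁻¹ * b'⁻¹ = v * (g * b') * g⁻¹ * v⁻¹ * b'⁻¹ := by group
          _ = v * b' * v * b'⁻¹ := by rw [hgb', inv_of_two hv]; group
          _ = _ := by group
      rw [e] at hcm
      have h2 : b' * b' ∈ kern G y := by
        have := mul_mem (inv_mem hcm) hv1
        rwa [mul_inv_rev, inv_inv, inv_mul_cancel_right] at this
      exact hb'A (Hyp.mem_of_sq_mem hodd h2)
    refine ⟨hgy, huniq _ (hmem z hz) (fun e => hyz (MulAction.injective g ?_)) (hfix z hb'z)⟩
    show g • y = g • z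
    rw [hgy]; exact e
  have hUx : ∀ g : G, g * b = b * g → g * b' = b' * g → g • x = x := by
    intro g hgb hgb'
    have hcj : ∀ p q : G, p * q = q * p →
        u * p * u⁻¹ * (u * q * u⁻¹) = u * q * u⁻¹ * (u * p * u⁻¹) := by
      intro p q h
      calc u * p * u⁻¹ * (u * q * u⁻¹) = u * (p * q) * u⁻¹ := by group
        _ = u * (q * p) * u⁻¹ := by rw [h]
        _ = u * q * u⁻¹ * (u * p * u⁻¹) := by group
    have hub : u * b' * u⁻¹ = b := by
      calc u * b' * u⁻¹ = u * u * b * (u * u)⁻¹ := by rw [hb'def]; group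
        _ = b := by rw [mul_self_of_two hu]; group
    have h1 : u * g * u⁻¹ * b = b * (u * g * u⁻¹) := by
      have := hcj g b' hgb'
      rwa [hub] at this
    have h2 : u * g * u⁻¹ * b' = b' * (u * g * u⁻¹) := hcj g b hgb
    have := (hU _ h1 h2).1
    rw [mul_smul, mul_smul, inv_of_two hu, huy] at this
    have h4 := congrArg (u • ·) this
    simp only [smul_smul_two hu, huy] at h4
    exact h4
  have hUstab : ∀ g : G, g • y = y → g • x = x → g * b = b * g ∧ g * b' = b' * g := fun g hgy hgx =>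
    ⟨hb.stab_comm hyp below hy hgy, hb'.stab_comm hyp below hb'x hgx⟩
  have hb'b : b' * b = b * b' := hb.stab_comm hyp below hy hb'y
  -- the stabiliser of `y` and `z` is that common centraliser
  have hD : ∀ g : G, g • y = y → g • z = z → g * b = b * g ∧ g * b' = b' * g := by
    intro g hgy hgz
    obtain ⟨d, hdy, hdx, hd⟩ := hyp.exists_factor hgy hyx
    obtain ⟨hdb, hdb'⟩ := hUstab d hdy hdx
    obtain ⟨-, hdz⟩ := hU d hdb hdb'
    have haz : (d⁻¹ * g) • z = z := by rw [mul_smul, hgz, inv_smul_of_smul hdz]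
    have hab := hb.kern_central hyp below hy hz hyz hd haz (g := b') hb'b
    refine ⟨hb.stab_comm hyp below hy hgy, ?_⟩
    calc g * b' = d * (d⁻¹ * g * b') := by group
      _ = d * (b' * (d⁻¹ * g)) := by rw [← hab]
      _ = d * b' * (d⁻¹ * g) := by group
      _ = b' * d * (d⁻¹ * g) := by rw [hdb']
      _ = b' * g := by group
  obtain ⟨s, hs, hsz, hsx⟩ := hyp.exists_swap hzx
  set U := stabilizer G y ⊓ stabilizer G z with hUdef
  have memU : ∀ g : G, g ∈ U ↔ g * b = b * g ∧ g * b' = b' * g := fun g =>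
    ⟨fun h => hD g h.1 h.2, fun h => hU g h.1 h.2⟩
  have hUconj : ∀ t : G, orderOf t = 2 →
      (∀ g ∈ U, (t * g * t) • y = y ∧ (t * g * t) • z = z) → ∀ g ∈ U, t * g * t ∈ U :=
    fun t _ h g hg => h g hg
  have hUu : ∀ g ∈ U, u * g * u ∈ U := by
    intro g hg
    obtain ⟨h1, h2⟩ := (memU g).1 hg
    refine (memU _).2 (hUstab _ ?_ ?_)
    · rw [mul_smul, mul_smul, huy, hUx g h1 h2, hux]
    · rw [mul_smul, mul_smul, hux, show g • y = y from hg.1, huy]
  have hUv : ∀ g ∈ U, v * g * v ∈ U := by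
    refine hUconj v hv fun g hg => ⟨?_, ?_⟩
    · rw [mul_smul, mul_smul, hvy, show g • z = z from hg.2, hvz]
    · rw [mul_smul, mul_smul, hvz, show g • y = y from hg.1, hvy]
  have hUs : ∀ g ∈ U, s * g * s ∈ U := by
    intro g hg
    obtain ⟨h1, h2⟩ := (memU g).1 hg
    have hz' : (s * g * s) • z = z := by rw [mul_smul, mul_smul, hsz, hUx g h1 h2, hsx]
    have hx' : (s * g * s) • x = x := by
      rw [mul_smul, mul_smul, hsx, show g • z = z from hg.2, hsz]
    exact (memU _).2 ⟨hb.stab_comm hyp below hz hz', hb'.stab_comm hyp below hb'x hx'⟩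
  set h := v * s * u with hh
  have hhy : h • y = y := by rw [hh, mul_smul, mul_smul, huy, hsx, hvz]
  have hhb : h * b = b * h := hb.stab_comm hyp below hy hhy
  have hhU : h ∈ U := by
    refine ⟨hhy, huniq _ ?_ (fun e => hyz (MulAction.injective h ?_)) ?_⟩
    · have := Hyp.conj_mem_kern (g := h) hz
      rwa [show h * b * h⁻¹ = b by rw [hhb]; group] at this
    · show h • y = h • z
      rw [hhy]; exact e
    · have hb'U : b' ∈ U := ⟨hb'y, hb'z⟩
      have hm : h⁻¹ * b' * h ∈ U := by
        have := hUu _ (hUs _ (hUv b' hb'U))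
        have e : h⁻¹ * b' * h = u * (s * (v * b' * v) * s) * u := by
          rw [hh, mul_inv_rev, mul_inv_rev, inv_of_two hu, inv_of_two hs, inv_of_two hv]; group
        rwa [e]
      have h3 : (h⁻¹ * b' * h) • z = z := hm.2
      rw [mul_smul, mul_smul, inv_smul_eq_iff] at h3
      exact h3
  -- hence `v` and `u` commute modulo `U`, so they fix the same point
  have hvu2 : (v * u) * (v * u) ∈ U := by
    have hs1 : v * h * u * (v * h * u) = 1 := by
      have : v * h * u = s := by
        rw [hh]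
        calc v * (v * s * u) * u = (v * v) * s * (u * u) := by group
          _ = s := by rw [mul_self_of_two hu, mul_self_of_two hv, one_mul, mul_one]
      rw [this, mul_self_of_two hs]
    have e : v * h * v * (v * u * (v * u)) * (u * h * u) = 1 := by
      calc v * h * v * (v * u * (v * u)) * (u * h * u)
          = v * h * (v * v) * u * v * (u * u) * h * u := by group
        _ = v * h * u * (v * h * u) := by
          rw [mul_self_of_two hv, mul_self_of_two hu]; group
        _ = 1 := hs1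
    have : v * u * (v * u) = (v * h * v)⁻¹ * (u * h * u)⁻¹ := by
      rw [← mul_inv_rev, eq_inv_iff_mul_eq_one, ← e]
      calc v * u * (v * u) * (u * h * u * (v * h * v)) =
          (v * h * v)⁻¹ * (v * h * v * (v * u * (v * u)) * (u * h * u)) * (v * h * v) := by group
        _ = 1 := by rw [e]; group
        _ = _ := e.symm
    rw [this]
    exact mul_mem (inv_mem (hUv h hhU)) (inv_mem (hUu h hhU))
  obtain ⟨p, hp, -⟩ := hyp.fixed v hv
  obtain ⟨p', hp', -⟩ := hyp.fixed u hu
  by_cases hpp : p = p'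
  · subst hpp
    refine hx (hb'x |> fun _ => ?_)
    have hbp : b ∈ kern G p := (hyp.mem_kern_iff hv hp).2 hvb.symm
    have hbu : b * u = u * b := (hyp.mem_kern_iff hu hp').1 hbp
    have : b' = b := by rw [hb'def, ← hbu]; group
    exact this ▸ hb'x
  · have hvu : v * u ∈ U := Hyp.mem_of_sq_mem (hyp.odd_orderOf_mul hv hu hp hp' hpp) hvu2
    have h1 : v • x = y := by
      have h0 : (v * u) • y = y := hvu.1
      rwa [mul_smul, huy] at h0
    exact hzx (by rw [← hvy, ← h1, smul_smul_two hv])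

theorem kern_fix_outside {y x : X} (hy : b ∈ kern G y) (hx : b ∉ kern G x) {a : G}
    (ha : a ∈ kern G y) (hax : a • x = x) : a ∈ Subgroup.center G := by
  by_contra hac
  have hyx : y ≠ x := fun e => hx (e ▸ hy)
  by_cases hash : Shared X a
  · exact hx (hb.block_le hyp below hash hy ha (hash.mem_of_fix hyp below hax))
  · obtain ⟨u, hu, huy, hux⟩ := hyp.exists_swap hyx
    set a' := u * a * u⁻¹ with ha'def
    have ha'x : a' ∈ kern G x := huy ▸ Hyp.conj_mem_kern ha
    have ha'y : a' • y = y := by rw [ha'def, inv_of_two hu, mul_smul, mul_smul, huy, hax, hux]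
    have ha'b : a' * b = b * a' := hb.stab_comm hyp below hy ha'y
    refine hx (hb.mem_of_fix hyp below ?_)
    by_contra hne
    refine hash ?_
    have hsh : Shared X a' := by
      refine ⟨fun h => hac ?_, x, b • x, Ne.symm hne, ha'x, ?_⟩
      · have := (inferInstance : (Subgroup.center G).Normal).conj_mem _ h u⁻¹
        simpa [ha'def, mul_assoc] using this
      · have := Hyp.conj_mem_kern (g := b) ha'x
        rwa [show b * a' * b⁻¹ = a' by rw [← ha'b]; group] at this
    have := hsh.conj hyp u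
    rwa [show u * a' * u⁻¹ = a by
      calc u * a' * u⁻¹ = u * u * a * (u * u)⁻¹ := by rw [ha'def]; group
        _ = a := by rw [mul_self_of_two hu]; group] at this

/-- There is no shared element. -/
theorem false_of : False := by
  obtain ⟨hbc, y, q, hyq, hy, hq⟩ := id hb
  by_cases hall : ∀ x : X, b ∈ kern G x
  · refine hbc (Subgroup.mem_center_iff.2 fun g => ?_)
    by_cases hg : g • y = y
    · exact hb.stab_comm hyp below hy hg
    · obtain ⟨s, hs, hsy, hsx⟩ := hyp.exists_swap (Ne.symm hg)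
      have h1 : (s * g) • y = y := by rw [mul_smul, hsx]
      obtain ⟨p, hp, -⟩ := hyp.fixed s hs
      have h2 : s * b = b * s := ((hyp.mem_kern_iff hs hp).1 (hall p)).symm
      have h3 : s * g * b = b * (s * g) := hb.stab_comm hyp below hy h1
      rw [← mul_assoc, ← h2, mul_assoc, mul_assoc] at h3
      exact mul_left_cancel h3
  obtain ⟨x, hx⟩ := not_forall.1 hall
  have hyx : y ≠ x := fun e => hx (e ▸ hy)
  obtain ⟨d, hdy, hdx, hdA⟩ := hyp.exists_not_mem_kern hyx
  obtain ⟨z, hz, hyz, hdz, -⟩ := hb.exists_second hyp below hy hdy hdA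
  have hzx : z ≠ x := fun e => hx (e ▸ hz)
  have hpair : ∀ (y : X) (u : G), b ∈ kern G y → orderOf u = 2 → u • y = x → InvPair u y x := by
    intro y u hy hu huy c hcy hcx hc
    obtain ⟨w, hw, -⟩ := hyp.fixed u hu
    have hcw : c ∈ kern G w := (hyp.mem_kern_iff hu hw).2 hc
    have hwy : w ≠ y := fun e => hx (by
      subst e
      rw [hw] at huy
      exact huy ▸ hy)
    by_cases hwb : b ∈ kern G w
    · exact hb.kern_fix_outside hyp below hwb hx hcw hcx
    · obtain ⟨s, hs, hsw, hsy⟩ := hyp.exists_swap hwy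
      have h := hb.kern_fix_outside hyp below hy hwb (a := s * c * s⁻¹)
        (hsw ▸ Hyp.conj_mem_kern hcw)
        (by rw [inv_of_two hs, mul_smul, mul_smul, hsw, hcy, hsy])
      have := (inferInstance : (Subgroup.center G).Normal).conj_mem _ h s⁻¹
      simpa [mul_assoc] using this
  obtain ⟨u, hu, huy, hux⟩ := hyp.exists_swap hyx
  obtain ⟨s, hs, hsx, hsz⟩ := hyp.exists_swap hzx.symm
  obtain ⟨v, hv, hvy, hvz, -, hvinv⟩ := hb.exists_swap hyp below hy hz hyz
  have i1 := (hpair y u hy hu huy).inverts hyp hu hyx huy hux hdy hdx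
  have i2 := (hpair z s hz hs hsz).inverts hyp hs hzx hsz hsx hdz hdx
  refine hdA (Hyp.mem_of_sq_mem (hyp.odd_of_fix_two hyx hdy hdx) (sq_mem_kern_of_swaps hyp hu hs hv
    ?_ i1 i2 (hvinv d hdy hdz).1 fun g hg => hb.comm_kern hyp below hy hg hdy))
  rw [mul_smul, mul_smul, huy, hsx, hvz]

end Shared

/-- Without shared elements only central elements of a kernel fix a second point. -/
theorem good_of_no_shared [Finite G] (hyp : Hyp G X) (hns : ∀ b : G, ¬ Shared X b) : Good G X := by
  have hR : ∀ (p q : X) (c : G), p ≠ q → c ∈ kern G p → c ∈ kern G q → c ∈ Subgroup.center G :=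
    fun p q c hpq hp hq => by
      by_contra h
      exact hns c ⟨h, p, q, hpq, hp, hq⟩
  intro x y a hxy ha hay
  by_contra hac
  obtain ⟨u, hu, hux, huy⟩ := hyp.exists_swap hxy
  set a' := u * a * u⁻¹ with ha'def
  have ha'y : a' ∈ kern G y := hux ▸ Hyp.conj_mem_kern ha
  have ha'x : a' • x = x := by rw [ha'def, inv_of_two hu, mul_smul, mul_smul, hux, hay, huy]
  have hua' : u * a' * u⁻¹ = a := by
    calc u * a' * u⁻¹ = u * u * a * (u * u)⁻¹ := by rw [ha'def]; group
      _ = a := by rw [mul_self_of_two hu]; group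
  set r := a * a' * a⁻¹ * a'⁻¹ with hr
  have hrx : r ∈ kern G x := by
    rw [show r = a * (a' * a⁻¹ * a'⁻¹) by rw [hr]; group]
    exact mul_mem ha (Hyp.conj_mem_kern_stab (inv_mem ha) ha'x)
  have hry : r ∈ kern G y := mul_mem (Hyp.conj_mem_kern_stab ha'y hay) (inv_mem ha'y)
  have hrc := hR x y r hxy hrx hry
  have hru : u * r * u⁻¹ = r⁻¹ := by
    calc u * r * u⁻¹ = (u * a * u⁻¹) * (u * a' * u⁻¹) * (u * a * u⁻¹)⁻¹ * (u * a' * u⁻¹)⁻¹ := by
          rw [hr]; group
      _ = r⁻¹ := by rw [hua', ← ha'def, hr]; group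
  rw [Subgroup.mem_center_iff.1 hrc u, mul_inv_cancel_right] at hru
  have hr1 : r = 1 := Hyp.eq_one_of_sq hyp (hyp.center_odd hrc) (mul_eq_one_iff_eq_inv.2 hru)
  have hcomm : a * a' = a' * a := by
    have := hr1; rw [hr, mul_inv_eq_one, mul_inv_eq_iff_eq_mul] at this; exact this
  set k := a * a' with hk
  have hku : k * u = u * k := by
    have : u * k * u⁻¹ = k := by
      calc u * k * u⁻¹ = (u * a * u⁻¹) * (u * a' * u⁻¹) := by rw [hk]; group
        _ = a' * a := by rw [hua', ← ha'def]
        _ = k := hcomm.symm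
    calc k * u = u * k * u⁻¹ * u := by rw [this]
      _ = u * k := by group
  obtain ⟨w, hw, -⟩ := hyp.fixed u hu
  have hkw : k ∈ kern G w := (hyp.mem_kern_iff hu hw).2 hku
  by_cases hkc : k ∈ Subgroup.center G
  · have ha'k : a' ∈ kern G x := by
      rw [show a' = a⁻¹ * k by rw [hk]; group]
      exact mul_mem (inv_mem ha) (hyp.center_le_kern hkc)
    have := hR x y a' hxy ha'k ha'y
    refine hac ?_
    rw [← hua']
    exact (inferInstance : (Subgroup.center G).Normal).conj_mem _ this u
  · have haw : a • w = w := by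
      by_contra hne
      refine hkc (hR w (a • w) k (Ne.symm hne) hkw ?_)
      have := Hyp.conj_mem_kern (g := a) hkw
      rwa [show a * k * a⁻¹ = k by
        calc a * k * a⁻¹ = a * (a' * a) * a⁻¹ := by rw [← hcomm]
          _ = k := by rw [hk]; group] at this
    set c := u * a * u⁻¹ * a⁻¹ with hc
    have hcw : c ∈ kern G w := by
      rw [show c = u * (a * u⁻¹ * a⁻¹) by rw [hc]; group]
      exact mul_mem (hyp.mem_kern_self hu hw)
        (Hyp.conj_mem_kern_stab (inv_mem (hyp.mem_kern_self hu hw)) haw)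
    have hcu := (hyp.mem_kern_iff hu hw).1 hcw
    have hc1 : c * c = 1 := by
      have : u * c * u⁻¹ = c⁻¹ := by
        calc u * c * u⁻¹ = (u * u) * a * u⁻¹ * a⁻¹ * u⁻¹ := by rw [hc]; group
          _ = c⁻¹ := by rw [mul_self_of_two hu, hc, inv_of_two hu]; simp [mul_assoc, inv_of_two hu]
      rw [← hcu, mul_inv_cancel_right] at this
      exact mul_eq_one_iff_eq_inv.2 this
    have hcfix : Odd (orderOf c) := by
      refine hyp.odd_of_fix_two hxy ?_ ?_
      · rw [show c = a' * a⁻¹ by rfl, mul_smul, inv_smul_of_smul (hyp.kern_smul ha), ha'x]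
      · rw [show c = a' * a⁻¹ by rfl, mul_smul, inv_smul_of_smul hay, hyp.kern_smul ha'y]
    have := Hyp.eq_one_of_sq hyp hcfix hc1
    rw [hc, ← ha'def, mul_inv_eq_one] at this
    exact hac (hR x y a hxy ha (this ▸ ha'y))

/-- Only central elements of a kernel fix a second point. -/
theorem good_of_hyp [Finite G] (hyp : Hyp G X) : Good G X := by
  induction hn : Nat.card G using Nat.strong_induction_on generalizing G X with
  | _ n ih =>
    subst hn
    refine good_of_no_shared hyp fun b hb => hb.false_of hyp ?_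
    intro c p q hpq hp hq hc
    refine ih _ ?_ (hyp.block_hyp hpq hp hq) rfl
    refine lt_of_le_of_ne (Nat.le_of_dvd Nat.card_pos (Subgroup.card_subgroup_dvd_card _)) fun e => hc ?_
    have htop := (Subgroup.card_eq_iff_eq_top _).1 e
    exact Subgroup.mem_center_iff.2 fun g => mem_cent_iff.1 (htop ▸ Subgroup.mem_top g)

end CfsgLib.AbelianInvCent
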