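/-
Groups with abelian involution centralisers: the quotient by the centre is `SL(2, 2^n)` and the
extension splits.
-/
import Mathlib
import Cfsg.Agent.Lib.AbelianInvCent.Shared
import Cfsg.Agent.Lib.AltGroups.ZassenhausAbelian
import Cfsg.Agent.Lib.TwoFusion.ElemCentField
import Cfsg.Agent.Lib.ClassicalLinear.Generation
import Cfsg.Agent.Lib.SchurMult.SL2
import Cfsg.Agent.Lib.SchurMult.Criterion

set_option autoImplicit false

namespace CfsgLib.AbelianInvCent

open MulAction

universe u v

variable {G : Type u} {X : Type v} [Group G] [Finite G] [MulAction G X] [Finite X]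

theorem exists_other_point (hyp : Hyp G X) (x : X) : ∃ y, x ≠ y := by
  obtain ⟨p, q, hpq⟩ := hyp.nontriv
  by_cases h : x = p
  · exact ⟨q, h ▸ hpq⟩
  · exact ⟨p, h⟩

theorem odd_card_points (hyp : Hyp G X) : Odd (Nat.card X) := by
  obtain ⟨x, y, hxy⟩ := hyp.nontriv
  obtain ⟨t, ht, htx⟩ := hyp.exists_inv x
  haveI : Fact (Nat.Prime 2) := ⟨Nat.prime_two⟩
  have hp : IsPGroup 2 (Subgroup.zpowers t) :=
    IsPGroup.of_card (n := 1) (by rw [Nat.card_zpowers, ht, pow_one])
  have h := hp.card_modEq_card_fixedPoints (α := X)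
  have h1 : Nat.card (fixedPoints (Subgroup.zpowers t) X) = 1 := by
    haveI : Subsingleton (fixedPoints (Subgroup.zpowers t) X) :=
      ⟨fun a b => Subtype.ext (hyp.fix_eq ht (a.2 ⟨t, Subgroup.mem_zpowers t⟩)
        (b.2 ⟨t, Subgroup.mem_zpowers t⟩))⟩
    haveI : Nonempty (fixedPoints (Subgroup.zpowers t) X) :=
      ⟨⟨x, fun g => show (g : G) ∈ stabilizer G x from
        (Subgroup.zpowers_le.2 (show t ∈ stabilizer G x from htx)) g.2⟩⟩
    exact Nat.card_of_subsingleton (Classical.arbitrary _)
  rw [h1] at h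
  exact Nat.odd_iff.2 h

/-- The action of `G` modulo its centre. -/
@[reducible] noncomputable def quotAction (hyp : Hyp G X) : MulAction (G ⧸ Subgroup.center G) X :=
  MulAction.compHom X (QuotientGroup.lift (Subgroup.center G) (MulAction.toPermHom G X)
    (fun z hz => by
      rw [MonoidHom.mem_ker]
      exact Equiv.ext fun x => hyp.center_smul hz x))

theorem exists_third (hyp : Hyp G X) {x y : X} (hxy : x ≠ y) : ∃ z, x ≠ z ∧ y ≠ z := by
  obtain ⟨t, ht, htx⟩ := hyp.exists_inv x
  refine ⟨t • y, fun e => hxy (MulAction.injective t ?_), fun e => hxy (hyp.fix_eq ht htx e.symm)⟩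
  show t • x = t • y
  rw [htx]; exact e

theorem exists_involution_lift (hyp : Hyp G X) {g : G} (hg : g ∉ Subgroup.center G)
    (hg2 : g * g ∈ Subgroup.center G) :
    ∃ t : G, orderOf t = 2 ∧ (QuotientGroup.mk t : G ⧸ Subgroup.center G) = QuotientGroup.mk g := by
  obtain ⟨k, hk⟩ := hyp.center_odd hg2
  have hpow : (g * g) ^ (2 * k + 1) = 1 := by rw [← hk, pow_orderOf_eq_one]
  have hmk : (QuotientGroup.mk (g ^ (2 * k + 1)) : G ⧸ Subgroup.center G) = QuotientGroup.mk g := by
    rw [QuotientGroup.eq]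
    have : (g ^ (2 * k + 1))⁻¹ * g = ((g * g) ^ k)⁻¹ := by
      rw [← pow_two, ← pow_mul, pow_succ']; group
    rw [this]
    exact inv_mem (pow_mem hg2 k)
  refine ⟨g ^ (2 * k + 1), orderOf_eq_prime ?_ fun h => hg ?_, hmk⟩
  · rw [← pow_mul, mul_comm, pow_mul, pow_two, hpow]
  · rw [h] at hmk
    exact (QuotientGroup.eq_one_iff g).1 hmk.symm

theorem conj_eq_of_commute_mk (hyp : Hyp G X) {t g : G} (ht : orderOf t = 2)
    (h : (QuotientGroup.mk (g * t) : G ⧸ Subgroup.center G) = QuotientGroup.mk (t * g)) :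
    g * t = t * g := by
  set z := (t * g)⁻¹ * (g * t) with hz
  have hzc : z ∈ Subgroup.center G := QuotientGroup.eq.1 h.symm
  have e : g * t * g⁻¹ = t * z := by
    have : g * t = t * g * z := by rw [hz]; group
    rw [this, mul_assoc t g z, Subgroup.mem_center_iff.1 hzc g]
    group
  have h2 : (g * t * g⁻¹) * (g * t * g⁻¹) = 1 := by
    rw [← mul_self_of_two ht]
    calc g * t * g⁻¹ * (g * t * g⁻¹) = g * (t * t) * g⁻¹ := by group
      _ = t * t := by rw [mul_self_of_two ht]; group
  have hz1 : z = 1 := by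
    refine Hyp.eq_one_of_sq hyp (hyp.center_odd hzc) ?_
    rw [e] at h2
    calc z * z = t * t * (z * z) := by rw [mul_self_of_two ht, one_mul]
      _ = t * z * (t * z) := by
        rw [mul_assoc t z (t * z), ← mul_assoc z t z, ← Subgroup.mem_center_iff.1 hzc t]; group
      _ = 1 := h2
  have : g * t = t * g * z := by rw [hz]; group
  rwa [hz1, mul_one] at this

theorem quot_isZassenhaus (hyp : Hyp G X) :
    letI := quotAction hyp
    Cfsg.IsZassenhausGroup (G ⧸ Subgroup.center G) X := by
  letI := quotAction hyp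
  have good := good_of_hyp hyp
  have hmk : ∀ (g : G) (p : X), (QuotientGroup.mk g : G ⧸ Subgroup.center G) • p = g • p :=
    fun g p => rfl
  obtain ⟨x, y, hxy⟩ := hyp.nontriv
  obtain ⟨z, hxz, hyz⟩ := exists_third hyp hxy
  refine ⟨⟨fun {q q'} h => ?_⟩, ?_, fun q a b c hab hbc hac ha hb hc => ?_, ?_, ?_⟩
  · revert h
    refine QuotientGroup.induction_on q fun g => ?_
    refine QuotientGroup.induction_on q' fun g' h => ?_
    have hfix : ∀ p : X, (g⁻¹ * g') • p = p := fun p => by
      rw [mul_smul, inv_smul_eq_iff, ← hmk, ← hmk, h p]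
    exact QuotientGroup.eq.2 (Good.mem_center_of_fix_three hyp good hxy hyz hxz (hfix x) (hfix y) (hfix z))
  · rw [MulAction.is_two_pretransitive_iff]
    intro a b c d hab hcd
    obtain ⟨g, hg⟩ : ∃ g : G, g • a = c := by
      by_cases h : a = c
      · exact ⟨1, by rw [one_smul, h]⟩
      · obtain ⟨s, -, hs, -⟩ := hyp.exists_swap h
        exact ⟨s, hs⟩
    obtain ⟨k, hk, hkb⟩ := Good.exists_kern_smul hyp good (x := c) (y := g • b) (y' := d)
      (fun e => hab (MulAction.injective g (hg.trans e))) hcd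
    refine ⟨QuotientGroup.mk (k * g), ?_, ?_⟩
    · rw [hmk, mul_smul, hg, hyp.kern_smul hk]
    · rw [hmk, mul_smul, hkb]
  · revert ha hb hc
    refine QuotientGroup.induction_on q fun g ha hb hc => ?_
    exact (QuotientGroup.eq_one_iff g).2 (Good.mem_center_of_fix_three hyp good hab hbc hac ha hb hc)
  · obtain ⟨d, hdx, hdy, hd⟩ := hyp.exists_not_mem_kern hxy
    exact ⟨QuotientGroup.mk d, fun h => hd (hyp.center_le_kern ((QuotientGroup.eq_one_iff d).1 h)),
      x, y, hxy, hdx, hdy⟩
  · intro N hN hNt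
    by_contra hcon
    have hreg : ∀ n ∈ N, ∀ p : X, n • p = p → n = 1 := fun n hn p hp => by
      by_contra hne
      refine hcon ⟨p, fun hbot => hne ?_⟩
      have : (⟨n, hn⟩ : N) ∈ stabilizer N p := hp
      rw [hbot, Subgroup.mem_bot] at this
      exact congrArg Subtype.val this
    obtain ⟨s, t, hst, hs, ht, hsx, htx⟩ := hyp.two x
    have hinv : ∀ e : G, orderOf e = 2 → e • x = x → ∀ n ∈ N,
        (QuotientGroup.mk e : G ⧸ Subgroup.center G) * n * QuotientGroup.mk e = n⁻¹ := by
      intro e he hex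
      set w : G ⧸ Subgroup.center G := QuotientGroup.mk e with hw
      have hww : w * w = 1 := by rw [hw, ← QuotientGroup.mk_mul, mul_self_of_two he]; rfl
      have hwinv : w⁻¹ = w := inv_eq_of_mul_eq_one_right hww
      let f : N → N := fun n => ⟨(n : G ⧸ Subgroup.center G)⁻¹ * (w * n * w⁻¹),
        mul_mem (inv_mem n.2) (hN.conj_mem _ n.2 w)⟩
      have hf : Function.Injective f := by
        intro n m h
        have h' : (n : G ⧸ Subgroup.center G)⁻¹ * (w * n * w⁻¹) =
            (m : G ⧸ Subgroup.center G)⁻¹ * (w * m * w⁻¹) := congrArg Subtype.val h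
        have hc : ((m : G ⧸ Subgroup.center G) * (n : G ⧸ Subgroup.center G)⁻¹) * w =
            w * ((m : G ⧸ Subgroup.center G) * (n : G ⧸ Subgroup.center G)⁻¹) := by
          calc _ = (m : G ⧸ Subgroup.center G) * ((n : G ⧸ Subgroup.center G)⁻¹ * (w * n * w⁻¹)) * w *
                (n : G ⧸ Subgroup.center G)⁻¹ := by group
            _ = m * ((m : G ⧸ Subgroup.center G)⁻¹ * (w * m * w⁻¹)) * w *
                (n : G ⧸ Subgroup.center G)⁻¹ := by rw [h']
            _ = w * ((m : G ⧸ Subgroup.center G) * (n : G ⧸ Subgroup.center G)⁻¹) := by group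
        set r := (m : G ⧸ Subgroup.center G) * (n : G ⧸ Subgroup.center G)⁻¹ with hr
        have hrx : r • x = x := hyp.fix_eq he (x := r • x) (y := x)
          (by rw [← hmk e (r • x), ← hw, ← mul_smul, ← hc, mul_smul, hw, hmk, hex]) hex
        have := hreg r (mul_mem m.2 (inv_mem n.2)) x hrx
        rw [hr, mul_inv_eq_one] at this
        exact Subtype.ext this.symm
      intro n hn
      obtain ⟨m, hm⟩ := Finite.surjective_of_injective hf ⟨n, hn⟩
      have hm' : (m : G ⧸ Subgroup.center G)⁻¹ * (w * m * w⁻¹) = n := congrArg Subtype.val hm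
      rw [← hm', hwinv]
      calc w * ((m : G ⧸ Subgroup.center G)⁻¹ * (w * m * w)) * w
          = w * (m : G ⧸ Subgroup.center G)⁻¹ * w * m * (w * w) := by group
        _ = w⁻¹ * (m : G ⧸ Subgroup.center G)⁻¹ * w⁻¹ * m := by rw [hww, mul_one, hwinv]
        _ = _ := by group
    set w := (QuotientGroup.mk (t * s) : G ⧸ Subgroup.center G) with hw
    have hwx : w • x = x := by rw [hw, hmk, mul_smul, hsx, htx]
    have hwn : ∀ n ∈ N, w * n = n * w := by
      intro n hn
      have h1 := hinv s hs hsx n hn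
      have h2 := hinv t ht htx n⁻¹ (inv_mem hn)
      rw [inv_inv, ← h1] at h2
      have hss : (QuotientGroup.mk s : G ⧸ Subgroup.center G) * QuotientGroup.mk s = 1 := by
        rw [← QuotientGroup.mk_mul, mul_self_of_two hs]; rfl
      have htt : (QuotientGroup.mk t : G ⧸ Subgroup.center G) * QuotientGroup.mk t = 1 := by
        rw [← QuotientGroup.mk_mul, mul_self_of_two ht]; rfl
      rw [hw, QuotientGroup.mk_mul]
      calc _ = (QuotientGroup.mk t : G ⧸ Subgroup.center G) * (QuotientGroup.mk s * n *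
            QuotientGroup.mk s) * (QuotientGroup.mk t : G ⧸ Subgroup.center G) *
            (QuotientGroup.mk t * QuotientGroup.mk s) := by
            conv_rhs => rw [mul_assoc _ (QuotientGroup.mk t) (_ * _), ← mul_assoc (QuotientGroup.mk t)
              (QuotientGroup.mk t), htt, one_mul, mul_assoc, mul_assoc, hss, mul_one, ← mul_assoc]
        _ = _ := by rw [h2]
    have hwall : ∀ p : X, (t * s) • p = p := by
      intro p
      obtain ⟨⟨n, hn⟩, hn'⟩ := hNt.exists_smul_eq x p
      rw [← hn', ← hmk, ← hw]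
      show w • n • x = n • x
      rw [← mul_smul, hwn n hn, mul_smul, hwx]
    have hts : t * s ∈ Subgroup.center G :=
      Good.mem_center_of_fix_three hyp good hxy hyz hxz (hwall x) (hwall y) (hwall z)
    have h1 : (t * s) * (t * s) = 1 := by
      calc t * s * (t * s) = t * (s * t) * s := by group
        _ = t * (t * s) * s := by rw [hyp.commInv x s t hs ht hsx htx]
        _ = (t * t) * (s * s) := by group
        _ = 1 := by rw [mul_self_of_two ht, mul_self_of_two hs, one_mul]
    have h3 := Hyp.eq_one_of_sq hyp (hyp.center_odd hts) h1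
    exact hst ((eq_inv_of_mul_eq_one_right h3).trans (inv_of_two ht))

/-- Every element of a kernel squares to a central element. -/
theorem kern_sq_mem_center (hyp : Hyp G X) {x : X} {a : G} (ha : a ∈ kern G x) :
    a * a ∈ Subgroup.center G := by
  classical
  have good := good_of_hyp hyp
  letI := quotAction hyp
  haveI := Fintype.ofFinite X
  have hmk : ∀ (g : G) (p : X), (QuotientGroup.mk g : G ⧸ Subgroup.center G) • p = g • p :=
    fun g p => rfl
  obtain ⟨o, hxo⟩ := exists_other_point hyp x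
  set π := QuotientGroup.mk' (Subgroup.center G) with hπ
  set F : Subgroup (G ⧸ Subgroup.center G) := (kern G x).map π with hF
  set D := stabilizer (G ⧸ Subgroup.center G) x ⊓ stabilizer (G ⧸ Subgroup.center G) o with hD
  have hFle : F ≤ stabilizer (G ⧸ Subgroup.center G) x := by
    rintro _ ⟨g, hg, rfl⟩
    exact hyp.kern_smul hg
  have hFn : (F.subgroupOf (stabilizer (G ⧸ Subgroup.center G) x)).Normal := by
    refine ⟨?_⟩
    rintro ⟨n, hnx⟩ hn ⟨q, hqx⟩
    obtain ⟨m, hm, rfl⟩ := Subgroup.mem_subgroupOf.1 hn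
    obtain ⟨g, rfl⟩ := QuotientGroup.mk_surjective q
    exact Subgroup.mem_subgroupOf.2 ⟨g * m * g⁻¹, Hyp.conj_mem_kern_stab hm hqx, by simp [hπ]⟩
  have hFab : IsMulCommutative F := by
    refine ⟨⟨?_⟩⟩
    rintro ⟨_, g, hg, rfl⟩ ⟨_, h, hh, rfl⟩
    exact Subtype.ext (show π g * π h = π h * π g by rw [← map_mul, hyp.kern_comm hg hh, map_mul])
  have hreg : ∀ p q : X, p ≠ x → q ≠ x → ∃! f : F, (f : G ⧸ Subgroup.center G) • p = q := by
    intro p q hp hq
    obtain ⟨k, hk, hkp⟩ := Good.exists_kern_smul hyp good hp.symm hq.symm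
    refine ⟨⟨π k, k, hk, rfl⟩, hkp, ?_⟩
    rintro ⟨_, g, hg, rfl⟩ (hgp : g • p = q)
    refine Subtype.ext ?_
    show π g = π k
    refine (QuotientGroup.eq.2 ?_).symm
    refine good x p _ hp.symm (mul_mem (inv_mem hk) hg) ?_
    rw [mul_smul, hgp, inv_smul_eq_iff, hkp]
  have hcardF : Nat.card F + 1 = Nat.card X := by
    have hb : Function.Bijective (fun f : F => (⟨(f : G ⧸ Subgroup.center G) • o, fun e => hxo
        (MulAction.injective (f : G ⧸ Subgroup.center G) ((hFle f.2).trans e.symm))⟩ : {p : X // p ≠ x})) :=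
      ⟨fun f f' h => (hreg o _ hxo.symm (fun e => hxo
          (MulAction.injective (f : G ⧸ Subgroup.center G) ((hFle f.2).trans e.symm)))).unique rfl
          (congrArg Subtype.val h).symm,
        fun p => by
          obtain ⟨f, hf, -⟩ := hreg o p hxo.symm p.2
          exact ⟨f, Subtype.ext hf⟩⟩
    rw [Nat.card_eq_of_bijective _ hb, Nat.card_eq_fintype_card, Fintype.card_subtype_compl,
      Fintype.card_subtype_eq, Nat.card_eq_fintype_card]
    have : 0 < Fintype.card X := Fintype.card_pos_iff.2 ⟨x⟩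
    omega
  have hD1 : Nat.card D + 2 = Nat.card X := by
    rw [Nat.card_eq_fintype_card (α := X)]
    rcases CfsgLib.AltGroups.zassenhaus_abelian_kernel (quot_isZassenhaus hyp) hxo.symm F hFle hFn
      hFab hreg with h | ⟨h, -⟩
    · exact h
    · have := odd_card_points hyp
      rw [Nat.card_eq_fintype_card, h] at this
      exact absurd this (by rw [Nat.not_odd_iff_even]; exact ⟨Nat.card D + 1, by rw [hD]; omega⟩)
  obtain ⟨s, hs, hsx⟩ := hyp.exists_inv x
  set e := π s with he
  have hesq : e * e = 1 := by rw [he, ← map_mul, mul_self_of_two hs, map_one]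
  let J : Type u := {f : F // f ≠ 1 ∧ f * f = 1}
  have hsJ : ∀ d : D, ∃ j : J, ((j : F) : G ⧸ Subgroup.center G) =
      (d : G ⧸ Subgroup.center G) * e * (d : G ⧸ Subgroup.center G)⁻¹ := by
    rintro ⟨d, hdx, -⟩
    obtain ⟨g, rfl⟩ := QuotientGroup.mk_surjective d
    have hm : g * s * g⁻¹ ∈ kern G x := Hyp.conj_mem_kern_stab (hyp.mem_kern_self hs hsx) hdx
    refine ⟨⟨⟨π (g * s * g⁻¹), _, hm, rfl⟩, fun h => ?_, Subtype.ext ?_⟩, by simp [hπ, e]⟩
    · have h1 : π (g * s * g⁻¹) = 1 := congrArg Subtype.val h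
      have hc := (QuotientGroup.eq_one_iff _).1 h1
      have := Hyp.eq_one_of_sq hyp (hyp.center_odd hc)
        (mul_self_of_two ((orderOf_conj' g s).trans hs))
      rw [← orderOf_conj' g s, this, orderOf_one] at hs
      omega
    · show π (g * s * g⁻¹) * π (g * s * g⁻¹) = 1
      rw [← map_mul, mul_self_of_two ((orderOf_conj' g s).trans hs), map_one]
  choose φ hφ using hsJ
  have hφi : Function.Injective φ := by
    intro d d' h
    have h1 := (hφ d).symm.trans ((congrArg (fun j : J => ((j : F) : G ⧸ Subgroup.center G)) h).trans (hφ d'))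
    obtain ⟨g, hg⟩ := QuotientGroup.mk_surjective ((d' : G ⧸ Subgroup.center G)⁻¹ * (d : G ⧸ Subgroup.center G))
    have h2 : (d' : G ⧸ Subgroup.center G)⁻¹ * (d : G ⧸ Subgroup.center G) * e = e * ((d' : G ⧸ Subgroup.center G)⁻¹ * d) := by
      calc _ = (d' : G ⧸ Subgroup.center G)⁻¹ * ((d : G ⧸ Subgroup.center G) * e *
            (d : G ⧸ Subgroup.center G)⁻¹) * d := by group
        _ = _ := by rw [h1]; group
    have hmem := D.mul_mem (D.inv_mem d'.2) d.2
    rw [← hg] at h2 hmem
    have hc := conj_eq_of_commute_mk hyp hs (g := g) (by rw [QuotientGroup.mk_mul, QuotientGroup.mk_mul]; exact h2)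
    have hcen := good x o g hxo ((hyp.mem_kern_iff hs hsx).2 hc) hmem.2
    rw [(QuotientGroup.eq_one_iff g).2 hcen, eq_comm, inv_mul_eq_one] at hg
    exact Subtype.ext hg.symm
  have hge : Nat.card F ≤ Nat.card J + 1 := by
    have := Nat.card_le_card_of_injective φ hφi
    omega
  by_contra hna
  let F1 := {f : F // f ≠ 1}
  have hlt : Nat.card J < Nat.card F1 := by
    let ι : J → F1 := fun j => ⟨j.1, j.2.1⟩
    refine lt_of_le_of_ne (Nat.card_le_card_of_injective ι fun a b h => Subtype.ext (congrArg Subtype.val h :))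
      fun heq => ?_
    have hsurj : Function.Surjective ι :=
      ((Nat.bijective_iff_injective_and_card ι).2
        ⟨fun a b h => Subtype.ext (congrArg Subtype.val h :), heq⟩).surjective
    by_cases h1 : π a = 1
    · exact hna (mul_mem ((QuotientGroup.eq_one_iff a).1 h1) ((QuotientGroup.eq_one_iff a).1 h1))
    · obtain ⟨j, hj⟩ := hsurj ⟨⟨π a, a, ha, rfl⟩, fun h => h1 (congrArg Subtype.val h)⟩
      have := j.2.2
      have hj' : (j.1 : F) = ⟨π a, a, ha, rfl⟩ := congrArg Subtype.val hj
      rw [hj'] at this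
      exact hna ((QuotientGroup.eq_one_iff (a * a)).1 (congrArg Subtype.val this))
  have hF1 : Nat.card F1 + 1 = Nat.card F := by
    haveI := Fintype.ofFinite F
    rw [Nat.card_eq_fintype_card, Nat.card_eq_fintype_card, Fintype.card_subtype_compl,
      Fintype.card_subtype_eq]
    have : 0 < Fintype.card F := Fintype.card_pos
    omega
  omega

/-- The quotient by the centre satisfies the hypotheses of the characterisation of `SL(2, 2^n)` by
elementary abelian involution centralisers. -/
theorem exists_elemCentHyp (hyp : Hyp G X) :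
    ∃ T : Sylow 2 (G ⧸ Subgroup.center G), CfsgLib.TwoFusion.ElemCentHyp T := by
  classical
  haveI : Fact (Nat.Prime 2) := ⟨Nat.prime_two⟩
  set π := QuotientGroup.mk' (Subgroup.center G) with hπ
  obtain ⟨x, y, hxy⟩ := hyp.nontriv
  have hsq : ∀ c ∈ (kern G x).map π, c ^ 2 = 1 := by
    rintro _ ⟨g, hg, rfl⟩
    rw [pow_two, ← map_mul]
    exact (QuotientGroup.eq_one_iff _).2 (kern_sq_mem_center hyp hg)
  obtain ⟨T, hT⟩ := (show IsPGroup 2 ((kern G x).map π) from fun g =>
    ⟨1, Subtype.ext (by simpa using hsq g g.2)⟩).exists_le_sylow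
  have hne : ∀ g : G, orderOf g = 2 → π g ≠ 1 := fun g hg h => by
    have := Hyp.eq_one_of_sq hyp (hyp.center_odd ((QuotientGroup.eq_one_iff g).1 h)) (mul_self_of_two hg)
    rw [this, orderOf_one] at hg
    omega
  obtain ⟨s, t, hst, hs, ht, hsx, htx⟩ := hyp.two x
  have hπst : π s ≠ π t := fun h => hst (by
    have hc : s⁻¹ * t ∈ Subgroup.center G := QuotientGroup.eq.1 h
    refine inv_mul_eq_one.1 (Hyp.eq_one_of_sq hyp (hyp.center_odd hc) ?_)
    rw [inv_of_two hs]
    calc s * t * (s * t) = s * (t * s) * t := by group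
      _ = s * (s * t) * t := by rw [hyp.commInv x s t hs ht hsx htx]
      _ = (s * s) * (t * t) := by group
      _ = 1 := by rw [mul_self_of_two hs, mul_self_of_two ht, one_mul])
  refine ⟨T, ⟨fun hcyc => ?_, fun hn => ?_, fun q hq => ?_⟩⟩
  · haveI := hcyc
    have hmem : ∀ g : G, orderOf g = 2 → g • x = x → π g ∈ (T : Subgroup (G ⧸ Subgroup.center G)) :=
      fun g hg hgx => hT ⟨g, hyp.mem_kern_self hg hgx, rfl⟩
    haveI := Fintype.ofFinite (T : Subgroup (G ⧸ Subgroup.center G))
    have hle := IsCyclic.card_pow_eq_one_le (α := (T : Subgroup (G ⧸ Subgroup.center G))) (n := 2) two_pos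
    have h3 : ({1, ⟨π s, hmem s hs hsx⟩, ⟨π t, hmem t ht htx⟩} :
        Finset (T : Subgroup (G ⧸ Subgroup.center G))) ⊆ Finset.univ.filter (fun a => a ^ 2 = 1) := by
      intro a ha
      simp only [Finset.mem_insert, Finset.mem_singleton] at ha
      refine Finset.mem_filter.2 ⟨Finset.mem_univ _, ?_⟩
      rcases ha with rfl | rfl | rfl
      · exact one_pow 2
      · exact Subtype.ext (hsq _ ⟨s, hyp.mem_kern_self hs hsx, rfl⟩)
      · exact Subtype.ext (hsq _ ⟨t, hyp.mem_kern_self ht htx, rfl⟩)
    have hc := (Finset.card_le_card h3).trans hle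
    rw [Finset.card_insert_of_notMem, Finset.card_insert_of_notMem, Finset.card_singleton] at hc
    · omega
    · simp only [Finset.mem_singleton]; exact fun h => hπst (congrArg Subtype.val h)
    · simp only [Finset.mem_insert, Finset.mem_singleton]
      rintro (h | h)
      · exact hne s hs (congrArg Subtype.val h).symm
      · exact hne t ht (congrArg Subtype.val h).symm
  · obtain ⟨u, hu, huy⟩ := hyp.exists_inv y
    have hodd := hyp.odd_orderOf_mul hs hu hsx huy hxy
    obtain ⟨c, -, -, -, hc⟩ := hyp.exists_swap_conj hs hu hsx huy hxy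
    have hTs : π s ∈ (T : Subgroup (G ⧸ Subgroup.center G)) := hT ⟨s, hyp.mem_kern_self hs hsx, rfl⟩
    have hTu : π u ∈ (T : Subgroup (G ⧸ Subgroup.center G)) := by
      have := hn.conj_mem _ hTs (π c)
      rwa [← map_mul, ← map_inv, ← map_mul, hc] at this
    obtain ⟨k, hk⟩ := T.isPGroup' ⟨π (s * u), by rw [map_mul]; exact mul_mem hTs hTu⟩
    have hk' : π (s * u) ^ 2 ^ k = 1 := by simpa using congrArg Subtype.val hk
    have h1 : π (s * u) = 1 := by
      rw [← orderOf_eq_one_iff]
      exact Nat.eq_one_of_dvd_coprimes ((Nat.coprime_two_left.2 hodd).pow_left k)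
        (orderOf_dvd_of_pow_eq_one hk') (orderOf_map_dvd π _)
    have hsu := hyp.center_smul ((QuotientGroup.eq_one_iff _).1 h1) x
    rw [mul_smul] at hsu
    refine hxy (hyp.fix_eq hu ?_ huy)
    have h4 := congrArg (s • ·) hsu
    simp only [smul_smul_two hs, hsx] at h4
    exact h4
  · obtain ⟨g, rfl⟩ := QuotientGroup.mk_surjective q
    have hg2 : g * g ∈ Subgroup.center G := by
      have := pow_orderOf_eq_one (QuotientGroup.mk g : G ⧸ Subgroup.center G)
      rw [hq, pow_two, ← QuotientGroup.mk_mul] at this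
      exact (QuotientGroup.eq_one_iff _).1 this
    obtain ⟨w, hw, hwg⟩ := exists_involution_lift hyp (g := g) (fun h => by
      rw [(QuotientGroup.eq_one_iff g).2 h, orderOf_one] at hq; omega) hg2
    obtain ⟨p, hp, -⟩ := hyp.fixed w hw
    have hlift : ∀ c ∈ Subgroup.centralizer ({QuotientGroup.mk g} : Set (G ⧸ Subgroup.center G)),
        ∃ k ∈ kern G p, c = π k := by
      intro c hc
      obtain ⟨k, rfl⟩ := QuotientGroup.mk_surjective c
      refine ⟨k, (hyp.mem_kern_iff hw hp).2 (conj_eq_of_commute_mk hyp hw ?_), rfl⟩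
      rw [QuotientGroup.mk_mul, QuotientGroup.mk_mul, hwg]
      exact (hc _ rfl).symm
    refine ⟨⟨⟨fun a b => ?_⟩⟩, fun c hc => ?_⟩
    · obtain ⟨ka, hka, ea⟩ := hlift a a.2
      obtain ⟨kb, hkb, eb⟩ := hlift b b.2
      refine Subtype.ext ?_
      show (a : G ⧸ Subgroup.center G) * b = b * a
      rw [ea, eb, ← map_mul, hyp.kern_comm hka hkb, map_mul]
    · obtain ⟨k, hk, rfl⟩ := hlift c hc
      rw [pow_two, ← map_mul]
      exact (QuotientGroup.eq_one_iff _).2 (kern_sq_mem_center hyp hk)

/-- The structure theorem: `G` is the direct product of `SL(2, F)` and its centre. -/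
theorem structure_of_hyp (hyp : Hyp G X) :
    ∃ (F : Type) (_ : Field F) (_ : Fintype F) (A : Type) (_ : CommGroup A) (_ : Finite A),
      CharP F 2 ∧ Odd (Nat.card A) ∧
        Nonempty (G ≃* Matrix.SpecialLinearGroup (Fin 2) F × A) := by
  classical
  haveI : Fact (Nat.Prime 2) := ⟨Nat.prime_two⟩
  obtain ⟨T, E⟩ := exists_elemCentHyp hyp
  obtain ⟨F, _, _, hcard, h2, ⟨e⟩⟩ := E.exists_mulEquiv_SL2
  haveI hchar : CharP F 2 := by
    haveI := ringChar.charP F
    have h : ringChar F ∣ 2 := (ringChar.spec F 2).mp (by exact_mod_cast h2)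
    rcases (Nat.dvd_prime Nat.prime_two).mp h with h | h
    · exact absurd h CharP.ringChar_ne_one
    · exact h ▸ ringChar.charP F
  have h4 : 2 < Fintype.card F := by
    by_contra hcon
    refine E.notCyclic ?_
    rcases Nat.lt_or_ge (Nat.card (T : Subgroup (G ⧸ Subgroup.center G))) 2 with h | h
    · haveI : Subsingleton (T : Subgroup (G ⧸ Subgroup.center G)) :=
        (Nat.card_eq_one_iff_unique.1 (by have := Nat.card_pos (α := (T : Subgroup (G ⧸ Subgroup.center G))); omega)).1
      exact isCyclic_of_subsingleton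
    · exact isCyclic_of_prime_card (p := 2) (by omega)
  have hperf : commutator (Matrix.SpecialLinearGroup (Fin 2) F) = ⊤ := by
    refine CfsgLib.ClassicalLinear.commutator_sl_eq_top (Or.inr ?_)
    obtain ⟨a, -, ha⟩ := Finset.exists_mem_notMem_of_card_lt_card
      (s := ({0, 1} : Finset F)) (t := Finset.univ) (by
        rw [Finset.card_pair zero_ne_one, Finset.card_univ]; omega)
    simp only [Finset.mem_insert, Finset.mem_singleton, not_or] at ha
    refine ⟨a, ha.1, fun h => ha.2 ?_⟩
    have : (a - 1) ^ 2 = 0 := by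
      calc (a - 1) ^ 2 = a ^ 2 + 1 - 2 * a := by ring
        _ = 0 := by rw [h, one_add_one_eq_two, h2]; ring
    exact sub_eq_zero.1 (pow_eq_zero_iff (two_ne_zero) |>.1 this)
  set σ := e.toMonoidHom.comp (QuotientGroup.mk' (Subgroup.center G)) with hσ
  have hs : Function.Surjective σ := e.surjective.comp QuotientGroup.mk_surjective
  have hker : σ.ker = Subgroup.center G := by
    ext g
    rw [MonoidHom.mem_ker, hσ, MonoidHom.comp_apply, MulEquiv.coe_toMonoidHom, map_eq_one_iff e e.injective]
    exact QuotientGroup.eq_one_iff g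
  set L := commutator G with hL
  have hLmap : L.map σ = ⊤ := by
    rw [hL, commutator_def, Subgroup.map_commutator, ← MonoidHom.range_eq_map,
      MonoidHom.range_eq_top.2 hs, ← commutator_def, hperf]
  have hdisj : ∀ z ∈ L, z ∈ Subgroup.center G → z = 1 := by
    intro z hzL hzc
    by_contra hne
    obtain ⟨r, hr, hrd⟩ := Nat.exists_prime_and_dvd (n := orderOf z) (mt orderOf_eq_one_iff.1 hne)
    have hw : orderOf (z ^ (orderOf z / r)) = r := orderOf_pow_orderOf_div (orderOf_pos z).ne' hrd
    set w := z ^ (orderOf z / r)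
    have hwc : w ∈ Subgroup.center G := pow_mem hzc _
    have hwL : w ∈ commutator G := pow_mem hzL _
    have hkill : ∀ K : Subgroup G, ¬ r ∣ K.index → w ^ K.index = 1 → False := fun K hK h => hK (by
      rw [← hw]; exact orderOf_dvd_of_pow_eq_one h)
    have hrodd : r ≠ 2 := fun h => by
      have := hyp.center_odd hwc
      rw [hw, h] at this
      exact absurd this (by decide)
    by_cases hdvd : r ∣ Nat.card (Matrix.SpecialLinearGroup (Fin 2) F)
    · obtain ⟨H, hH, hH1⟩ := CfsgLib.SchurMult.sl2_local_coprime σ hker.le hs 2 r hr hrodd hdvd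
      refine hkill (H.comap σ) (by rwa [H.index_comap_of_surjective hs]) ?_
      exact hH1 _ (CfsgLib.SchurMult.pow_index_mem_commutator _ hwc hwL)
        (by rw [hker]; exact pow_mem hwc _)
    · refine hkill (Subgroup.center G) ?_ ?_
      · rwa [Subgroup.index_eq_card, Nat.card_congr e.toEquiv]
      · have := CfsgLib.SchurMult.pow_index_mem_commutator (Subgroup.center G) hwc hwL
        rw [Subgroup.commutator_eq_bot_iff_le_centralizer.2 (Subgroup.center_le_centralizer _),
          Subgroup.mem_bot] at this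
        exact this
  let τ : L × Subgroup.center G →* G := MonoidHom.noncommCoprod L.subtype (Subgroup.center G).subtype
    (fun l c => Subgroup.mem_center_iff.1 c.2 (l : G))
  have hτ : Function.Bijective τ := by
    constructor
    · rw [injective_iff_map_eq_one]
      rintro ⟨l, c⟩ (h : (l : G) * (c : G) = 1)
      have hl : (l : G) = 1 := by
        refine hdisj _ l.2 ?_
        rw [eq_inv_of_mul_eq_one_left h]
        exact inv_mem c.2
      rw [hl, one_mul] at h
      exact Prod.ext (Subtype.ext hl) (Subtype.ext h)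
    · intro g
      obtain ⟨l, hl, hlg⟩ : σ g ∈ L.map σ := by rw [hLmap]; trivial
      have hmem : l⁻¹ * g ∈ Subgroup.center G := by
        rw [← hker, MonoidHom.mem_ker, map_mul, map_inv, hlg, inv_mul_cancel]
      exact ⟨(⟨l, hl⟩, ⟨_, hmem⟩), mul_inv_cancel_left l g⟩
  have hρ : Function.Bijective (σ.comp L.subtype) := by
    constructor
    · rw [injective_iff_map_eq_one]
      intro l hl
      exact Subtype.ext (hdisj _ l.2 (hker ▸ (MonoidHom.mem_ker.2 hl)))
    · intro y
      obtain ⟨l, hl, hly⟩ : y ∈ L.map σ := by rw [hLmap]; trivial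
      exact ⟨⟨l, hl⟩, hly⟩
  letI : CommGroup (Subgroup.center G) :=
    { (inferInstance : Group (Subgroup.center G)) with
      mul_comm := fun a b => Subtype.ext (Subgroup.mem_center_iff.1 b.2 (a : G)) }
  refine ⟨F, inferInstance, inferInstance, Shrink.{0} (Subgroup.center G), inferInstance,
    Finite.of_equiv _ (equivShrink.{0} (Subgroup.center G)), hchar, ?_, ⟨(MulEquiv.ofBijective τ hτ).symm.trans
      ((MulEquiv.ofBijective _ hρ).prodCongr Shrink.mulEquiv.symm)⟩⟩
  rw [← Nat.card_congr (equivShrink.{0} (Subgroup.center G)), ← Nat.not_even_iff_odd]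
  intro hev
  obtain ⟨c, hc⟩ := exists_prime_orderOf_dvd_card' (G := Subgroup.center G) 2 hev.two_dvd
  have := hyp.center_odd c.2
  rw [Subgroup.orderOf_coe, hc] at this
  exact absurd this (by decide)

end CfsgLib.AbelianInvCent
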